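import Mathlib

/-!
Congruences for powers in commutative rings and for 2x2 matrices (used for Schur rings over dihedral
groups).
-/

set_option autoImplicit false

open Finset

namespace Cfsg.Agent.H93.DB

variable {A B : Type*} [CommRing A] [CommRing B]

/-- the even part of `(a + θ) ^ p`, where `θ ^ 2 = a ^ 2 - n`. -/
def Gp (p : ℕ) (a n : A) : A := ∑ j ∈ range ((p + 1) / 2), (p.choose (2 * j) : A) * (a ^ (p - 2 * j) * (a ^ 2 - n) ^ j)

theorem map_Gp (φ : A →+* B) (p : ℕ) (a n : A) : φ (Gp p a n) = Gp p (φ a) (φ n) := by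
  simp [Gp]

theorem pow_congr {p : ℕ} {j : ℕ} (hj : 1 ≤ j) {a b : A} (h : ((p : A) ^ j) ∣ a - b) :
    ((p : A) ^ (j + 1)) ∣ a ^ p - b ^ p := by
  have h1 : (p : A) ∣ a - b := (dvd_pow_self _ (by omega)).trans h
  have h2 := dvd_geom_sum₂_self (n := p) h1
  rw [← Commute.mul_geom_sum₂ (Commute.all a b) p, pow_succ]
  exact mul_dvd_mul h h2

theorem sub_pow_dvd {c a b : A} (h : c ∣ a - b) (k : ℕ) : c ∣ a ^ k - b ^ k :=
  h.trans (sub_dvd_pow_sub_pow a b k)

theorem mul_congr {c a b a' b' : A} (h : c ∣ a - a') (h' : c ∣ b - b') : c ∣ a * b - a' * b' := by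
  have : a * b - a' * b' = (a - a') * b + a' * (b - b') := by ring
  rw [this]
  exact dvd_add (h.mul_right _) (h'.mul_left _)

theorem choose_dvd {p : ℕ} (hp : p.Prime) {i : ℕ} (hi : i ≠ 0) (hip : i < p) : (p : A) ∣ (p.choose i : A) := by
  exact Nat.cast_dvd_cast (hp.dvd_choose_self hi hip)

theorem Gp_congr {p : ℕ} (hp : p.Prime) (hp2 : p ≠ 2) {j : ℕ} (hj : 1 ≤ j) {a n a' n' : A}
    (ha : ((p : A) ^ j) ∣ a - a') (hn : ((p : A) ^ j) ∣ n - n') :
    ((p : A) ^ (j + 1)) ∣ Gp p a n - Gp p a' n' := by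
  have hodd : p % 2 = 1 := Nat.odd_iff.mp (hp.odd_of_ne_two hp2)
  rw [Gp, Gp, ← Finset.sum_sub_distrib]
  refine Finset.dvd_sum (fun i hi => ?_)
  rw [mem_range] at hi
  rcases Nat.eq_zero_or_pos i with rfl | hi0
  · simp only [mul_zero, Nat.choose_zero_right, Nat.cast_one, Nat.sub_zero, pow_zero, mul_one, one_mul]
    exact pow_congr hj ha
  · rw [← mul_sub, add_comm j 1, pow_add, pow_one]
    refine mul_dvd_mul (choose_dvd hp (by omega) (by omega)) ?_
    refine mul_congr (sub_pow_dvd ha _) (sub_pow_dvd ?_ _)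
    have : a ^ 2 - n - (a' ^ 2 - n') = (a ^ 2 - a' ^ 2) - (n - n') := by ring
    rw [this]
    exact dvd_sub (sub_pow_dvd ha _) hn

theorem Gp_zero {p : ℕ} (hp : p.Prime) (hp2 : p ≠ 2) (a n : A) : (p : A) ∣ Gp p a n - a ^ p := by
  have hodd : p % 2 = 1 := Nat.odd_iff.mp (hp.odd_of_ne_two hp2)
  have h1 : (p + 1) / 2 = ((p + 1) / 2 - 1) + 1 := by have := hp.two_le; omega
  rw [Gp, h1, Finset.sum_range_succ']
  simp only [mul_zero, Nat.choose_zero_right, Nat.cast_one, Nat.sub_zero, pow_zero, mul_one, one_mul,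
    add_sub_cancel_right]
  refine Finset.dvd_sum (fun i hi => ?_)
  rw [mem_range] at hi
  exact (choose_dvd hp (by omega) (by omega)).mul_right _

theorem sum_even_odd {M : Type*} [AddCommMonoid M] (F : ℕ → M) (k : ℕ) :
    ∑ i ∈ range (2 * k), F i = ∑ j ∈ range k, F (2 * j) + ∑ j ∈ range k, F (2 * j + 1) := by
  induction k with
  | zero => simp
  | succ k ih =>
    rw [show 2 * (k + 1) = 2 * k + 1 + 1 by ring, sum_range_succ, sum_range_succ, ih, sum_range_succ,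
      sum_range_succ]
    abel

/-- powers of a matrix `[[a, b], [c, a]]`. -/
theorem mat_pow {p : ℕ} (hodd : p % 2 = 1) (a b c : A) :
    ((!![a, b; c, a] : Matrix (Fin 2) (Fin 2) A) ^ p) 0 0 = Gp p a (a ^ 2 - b * c) := by
  have hW2 : (!![0, b; c, 0] : Matrix (Fin 2) (Fin 2) A) ^ 2 = (b * c) • (1 : Matrix (Fin 2) (Fin 2) A) := by
    rw [pow_two]
    ext i j
    fin_cases i <;> fin_cases j <;> simp [Matrix.mul_apply, Fin.sum_univ_two, mul_comm]
  have hsplit : (!![a, b; c, a] : Matrix (Fin 2) (Fin 2) A) = !![0, b; c, 0] + a • 1 := by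
    ext i j
    fin_cases i <;> fin_cases j <;> simp
  have hcomm : Commute (!![0, b; c, 0] : Matrix (Fin 2) (Fin 2) A) (a • 1) :=
    (Commute.one_right _).smul_right a
  rw [hsplit, hcomm.add_pow]
  have hrange : p + 1 = 2 * ((p + 1) / 2) := by omega
  rw [hrange, sum_even_odd, Matrix.add_apply, Matrix.sum_apply, Matrix.sum_apply]
  have h2 : ∑ j ∈ range ((p + 1) / 2), ((!![0, b; c, 0] : Matrix (Fin 2) (Fin 2) A) ^ (2 * j + 1) *
      (a • (1 : Matrix (Fin 2) (Fin 2) A)) ^ (p - (2 * j + 1)) * ((p.choose (2 * j + 1) : ℕ) : Matrix (Fin 2) (Fin 2) A)) 0 0 = 0 := by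
    refine Finset.sum_eq_zero (fun j _ => ?_)
    rw [pow_succ, pow_mul, hW2, smul_pow, one_pow, smul_pow, one_pow, ← nsmul_eq_mul']
    simp
  rw [h2, add_zero, Gp]
  refine Finset.sum_congr rfl (fun j _ => ?_)
  rw [pow_mul, hW2, smul_pow, one_pow, smul_pow, one_pow, ← nsmul_eq_mul']
  simp

end Cfsg.Agent.H93.DB
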