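import Cfsg.Agent.H93.DB.Dif

/-!
The bound for the difference set.
-/

set_option autoImplicit false
set_option linter.unusedSectionVars false
set_option linter.unusedVariables false

open Finset DihedralGroup

namespace Cfsg.Agent.H93.DB

variable {m : ℕ} [NeZero m]

/-- augmentation -/
noncomputable def aug (x : Z m) : ℤ := ∑ i, x.coeff i

theorem aug_mul (x y : Z m) : aug (x * y) = aug x * aug y := by
  unfold aug
  simp only [coeff_mulZ]
  rw [Finset.sum_comm, Finset.sum_mul]
  refine Finset.sum_congr rfl (fun j _ => ?_)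
  rw [← Finset.mul_sum]
  congr 1
  exact Equiv.sum_comp (Equiv.subRight j) (fun i => y.coeff i)

theorem aug_add (x y : Z m) : aug (x + y) = aug x + aug y := by
  unfold aug
  rw [← Finset.sum_add_distrib]
  refine Finset.sum_congr rfl (fun j _ => ?_)
  rw [AddMonoidAlgebra.coeff_add, Finsupp.add_apply]

theorem aug_one : aug (1 : Z m) = 1 := by
  unfold aug
  rw [AddMonoidAlgebra.one_def, AddMonoidAlgebra.coeff_single]
  simp [Finsupp.single_apply]

theorem aug_intCast_mul (n : ℤ) (x : Z m) : aug ((n : Z m) * x) = n * aug x := by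
  unfold aug
  rw [Finset.mul_sum]
  exact Finset.sum_congr rfl (fun j _ => coeff_intCast_mul n x j)

theorem aug_CC : aug (CC m) = m := by
  unfold aug CC
  simp

theorem aug_st (x : Z m) : aug (st x) = aug x := by
  unfold aug
  simp only [coeff_st]
  exact Equiv.sum_comp (Equiv.neg (ZMod m)) (fun i => x.coeff i)

theorem aug_bF (F : DihedralGroup m → ℤ) : aug (bF F) = ∑ i, F (sr i) := by
  unfold aug
  simp only [coeff_bF]
  exact Equiv.sum_comp (Equiv.neg (ZMod m)) (fun i => F (sr i))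

variable {F : DihedralGroup m → ℤ}

theorem rels (h01 : ∀ x, F x = 0 ∨ F x = 1) (hsym : ∀ x, F x⁻¹ = F x) {n y : ℤ}
    (hF : ∀ w, conv F F w = n * dl w + y) :
    (∑ i, F (r i)) ^ 2 + (∑ i, F (sr i)) ^ 2 = n + m * y ∧ 2 * (∑ i, F (r i)) * (∑ i, F (sr i)) = m * y ∧
      n + y = ∑ i, F (r i) + ∑ i, F (sr i) := by
  obtain ⟨E1, E2⟩ := dif_ids hsym hF
  have haF : aug (aF F) = ∑ i, F (r i) := rfl
  refine ⟨?_, ?_, ?_⟩
  · have h1 := congrArg aug E1
    rw [pow_two, aug_add, aug_mul, aug_mul, aug_st, aug_bF, haF, aug_add, aug_intCast_mul, aug_CC] at h1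
    have h2 : aug ((n : Z m)) = n := by
      have : (n : Z m) = (n : Z m) * 1 := by ring
      rw [this, aug_intCast_mul, aug_one, mul_one]
    rw [h2] at h1
    linear_combination h1
  · have h1 := congrArg aug E2
    have h2 : (2 : Z m) * aF F * bF F = ((2 : ℤ) : Z m) * (aF F * bF F) := by push_cast; ring
    rw [h2, aug_intCast_mul, aug_intCast_mul, aug_mul, aug_bF, haF, aug_CC] at h1
    linear_combination h1
  · have h1 := hF 1
    have h2 : conv F F 1 = ∑ x, F x := by
      unfold conv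
      refine Finset.sum_congr rfl (fun x _ => ?_)
      rw [mul_one, hsym]
      rcases h01 x with h | h <;> rw [h] <;> norm_num
    rw [h2, sum_dih] at h1
    unfold dl at h1
    rw [if_pos rfl] at h1
    linear_combination -h1

theorem bound (h01 : ∀ x, F x = 0 ∨ F x = 1) (hsym : ∀ x, F x⁻¹ = F x) {n y : ℤ}
    (hF : ∀ w, conv F F w = n * dl w + y) {q : ℕ} (hq : q ∣ m)
    (hQ : ∀ i z : ZMod m, q • z = 0 → F (r (i + z)) = F (r i))
    (hα0 : 0 < ∑ i, F (r i)) (hα : ∑ i, F (r i) < m) :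
    q * (∑ i, F (r i)) * (m - ∑ i, F (r i)) ≤ (m - q) * n := by
  obtain ⟨E1, E2⟩ := dif_ids hsym hF
  obtain ⟨R1, R2, R3⟩ := rels h01 hsym hF
  set α : ℤ := ∑ i, F (r i) with hαd
  set β : ℤ := ∑ i, F (sr i) with hβd
  set a := aF F with ha
  set b := bF F with hb
  have haF : ∑ i, a.coeff i = α := rfl
  have Ea : a * CC m = (α : Z m) * CC m := by rw [mul_CC, haF]
  have Eb : st b * CC m = (β : Z m) * CC m := by
    rw [mul_CC]
    have h1 : ∑ i, (st b).coeff i = aug (st b) := rfl
    rw [h1, aug_st, hb, aug_bF]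
  have E4 : ((2 : ℤ) : Z m) * (a ^ 2 * a ^ 2) = ((2 * n : ℤ) : Z m) * a ^ 2 +
      ((2 * y * α ^ 2 - y * α * β : ℤ) : Z m) * CC m := by
    push_cast
    linear_combination (2 * a ^ 2) * E1 - (a * st b) * E2 + (2 * (y : Z m) * (a + α) - y * st b) * Ea -
      (y : Z m) * α * Eb
  have hst : st a = a := by
    apply Z_ext
    intro i
    rw [coeff_st, ha, coeff_aF, coeff_aF]
    exact hsym (r i)
  set g : ZMod m → ℤ := fun i => (a ^ 2).coeff i with hg
  have hgneg : ∀ i, g (-i) = g i := by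
    intro i
    have : st (a ^ 2) = a ^ 2 := by rw [map_pow, hst]
    have h1 := congrArg (fun z => z.coeff i) this
    simp only [coeff_st] at h1
    exact h1
  have haneg : ∀ i, F (r (-i)) = F (r i) := fun i => hsym (r i)
  have hsq : ∀ x, F x * F x = F x := by
    intro x
    rcases h01 x with h | h <;> rw [h] <;> norm_num
  have hgQ : ∀ z : ZMod m, q • z = 0 → g z = α := by
    intro z hz
    simp only [hg]
    rw [pow_two, coeff_mulZ]
    simp only [ha, coeff_aF]
    refine Finset.sum_congr rfl (fun j _ => ?_)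
    have h1 : F (r (z - j)) = F (r j) := by
      rw [← haneg (z - j), neg_sub, sub_eq_add_neg]
      exact hQ j (-z) (by rw [smul_neg, hz, neg_zero])
    rw [h1, hsq]
  have hg0 : g 0 = α := hgQ 0 (smul_zero _)
  have hgsum : ∑ i, g i = α ^ 2 := by
    have h1 : ∑ i, g i = aug (a ^ 2) := rfl
    rw [h1, pow_two, aug_mul, pow_two]
    rfl
  have hS2 : 2 * ∑ i, g i ^ 2 = 2 * n * α + (2 * y * α ^ 2 - y * α * β) := by
    have h1 := congrArg (fun z => z.coeff 0) E4
    simp only [AddMonoidAlgebra.coeff_add, Finsupp.add_apply, coeff_intCast_mul] at h1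
    have h2 : (a ^ 2 * a ^ 2).coeff 0 = ∑ i, g i ^ 2 := by
      rw [coeff_mulZ]
      refine Finset.sum_congr rfl (fun j _ => ?_)
      rw [zero_sub]
      show g j * g (-j) = g j ^ 2
      rw [hgneg]
      ring
    have h3 : (CC m).coeff 0 = 1 := rfl
    have h4 : (a ^ 2).coeff 0 = α := hg0
    rw [h2, h3, h4] at h1
    linear_combination h1
  have hmS : (m : ℤ) * ∑ i, g i ^ 2 = n * α * (m - α) + α ^ 4 := by
    have h1 : (2 : ℤ) * (m * ∑ i, g i ^ 2) = 2 * (n * α * (m - α) + α ^ 4) := by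
      have hn : n = (α - β) ^ 2 := by linear_combination R2 - R1
      linear_combination (m : ℤ) * hS2 - (2 * α ^ 2 - α * β) * R2 + 2 * α ^ 2 * hn
    linarith
  -- Cauchy-Schwarz outside the torsion
  set T : Finset (ZMod m) := univ.filter (fun z => q • z = 0) with hT
  have hTc : T.card = q := card_tor hq
  have h1 : ∑ i ∈ Tᶜ, g i = α ^ 2 - q * α := by
    have h2 := Finset.sum_add_sum_compl T g
    have h3 : ∑ i ∈ T, g i = q * α := by
      rw [Finset.sum_congr rfl (fun z hz => hgQ z (by simpa [hT] using hz)), sum_const, hTc, nsmul_eq_mul]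
    rw [hgsum, h3] at h2
    linarith
  have h2 : ∑ i ∈ Tᶜ, g i ^ 2 = (∑ i, g i ^ 2) - q * α ^ 2 := by
    have h2 := Finset.sum_add_sum_compl T (fun i => g i ^ 2)
    have h3 : ∑ i ∈ T, g i ^ 2 = q * α ^ 2 := by
      rw [Finset.sum_congr rfl (fun z hz => by rw [hgQ z (by simpa [hT] using hz)]), sum_const, hTc, nsmul_eq_mul]
    rw [h3] at h2
    linarith
  have h3 := sq_sum_le_card_mul_sum_sq (s := Tᶜ) (f := g)
  rw [h1, h2] at h3
  have h4 : ((Tᶜ).card : ℤ) = m - q := by
    have h5 := Finset.card_compl_add_card T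
    rw [hTc, ZMod.card] at h5
    have : ((Tᶜ).card : ℤ) + q = m := by exact_mod_cast h5
    linarith
  rw [h4] at h3
  have hm0 : (0 : ℤ) < m := by exact_mod_cast Nat.pos_of_ne_zero (NeZero.ne m)
  exact num_cs hmS h3 hm0 hα0 hα

end Cfsg.Agent.H93.DB
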