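import Cfsg.Agent.H93.DB.Ord

/-!
The `p`-adic closure argument: every nontrivial class of a rational primitive Schur ring over a
dihedral group of order `2 m` contains a rotation of order divisible by `p`, for odd primes `p ∣ m`.
-/

set_option autoImplicit false
set_option linter.unusedSectionVars false
set_option linter.unusedVariables false

open Finset DihedralGroup

namespace Cfsg.Agent.H93.DB

variable {m : ℕ} [NeZero m] {rr : DihedralGroup m → DihedralGroup m → Prop}

/-- rationality -/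
def Rat (rr : DihedralGroup m → DihedralGroup m → Prop) : Prop :=
  ∀ (i : ZMod m) (k : ℕ), k.Coprime m → rr (r i) (r (k • i))

theorem rat_RR : Rat (RR rr) := fun i k hk => Relation.EqvGen.rel _ _ (Or.inr ⟨i, k, hk, rfl, rfl⟩)

theorem Rat.rel (hrat : Rat rr) {i j : ZMod m} (h : addOrderOf i = addOrderOf j) : rr (r i) (r j) := by
  obtain ⟨k, hk, rfl⟩ := exists_mul_of_order h
  exact hrat i k hk

/-- invariant functions vanishing on the `p`-singular rotations -/
def V (rr : DihedralGroup m → DihedralGroup m → Prop) (p : ℕ) (F : DihedralGroup m → ℤ) : Prop :=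
  Inv rr F ∧ ∀ i : ZMod m, p ∣ addOrderOf i → F (r i) = 0

/-- invariant functions vanishing modulo `p ^ n` on the `p`-singular rotations -/
def Vn (rr : DihedralGroup m → DihedralGroup m → Prop) (p n : ℕ) (F : DihedralGroup m → ℤ) : Prop :=
  Inv rr F ∧ ∀ i : ZMod m, p ∣ addOrderOf i → ((p : ℤ) ^ n) ∣ F (r i)

theorem conv_add_left (F F' G : DihedralGroup m → ℤ) : conv (F + F') G = conv F G + conv F' G := by
  funext x
  simp only [conv, Pi.add_apply, add_mul, Finset.sum_add_distrib]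

theorem conv_smul_left (c : ℤ) (F G : DihedralGroup m → ℤ) : conv (c • F) G = c • conv F G := by
  funext x
  simp only [conv, Pi.smul_apply, smul_eq_mul, Finset.mul_sum, mul_assoc]

theorem conv_zero_left (G : DihedralGroup m → ℤ) : conv 0 G = 0 := by
  funext x
  simp [conv]

theorem Vn_add {p n : ℕ} {F G : DihedralGroup m → ℤ} (hF : Vn rr p n F) (hG : Vn rr p n G) :
    Vn rr p n (F + G) :=
  ⟨PS.inv_add hF.1 hG.1, fun i hi => dvd_add (hF.2 i hi) (hG.2 i hi)⟩

theorem Vn_smul {p n : ℕ} {F : DihedralGroup m → ℤ} (c : ℤ) (hF : Vn rr p n F) : Vn rr p n (c • F) :=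
  ⟨PS.inv_smul c hF.1, fun i hi => by
    rw [Pi.smul_apply, smul_eq_mul]
    exact (hF.2 i hi).mul_left c⟩

theorem Vn_pow_smul {p n : ℕ} {F : DihedralGroup m → ℤ} (hF : Inv rr F) : Vn rr p n (((p : ℤ) ^ n) • F) :=
  ⟨PS.inv_smul _ hF, fun i hi => by
    rw [Pi.smul_apply, smul_eq_mul]
    exact dvd_mul_right _ _⟩

theorem inv_zero' : Inv rr (0 : DihedralGroup m → ℤ) := fun _ _ _ => rfl

namespace PS

variable {p : ℕ}

/-- `p^k`-th powers are divisible by `p^k` at `p`-singular rotations. -/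
theorem tower_sing (h : PS rr) (hrat : Rat rr) (hp : p.Prime) (hp2 : p ≠ 2) (hpm : p ∣ m)
    {F : DihedralGroup m → ℤ} (hF : Inv rr F) (k : ℕ) (i : ZMod m) (hi : p ∣ addOrderOf i) :
    ((p : ℤ) ^ k) ∣ pw F (p ^ k) (r i) := by
  induction k generalizing i with
  | zero => simp
  | succ k ih =>
    have h1 := h.towerD hF hp hp2 k i
    have h2 : ((p : ℤ) ^ (k + 1)) ∣ ∑ j ∈ univ.filter (fun j : ZMod m => p • j = i), pw F (p ^ k) (r j) := by
      by_cases hex : ∃ j₀ : ZMod m, p • j₀ = i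
      · obtain ⟨j₀, rfl⟩ := hex
        have h3 : ∀ z : ZMod m, p • z = 0 → pw F (p ^ k) (r (j₀ + z)) = pw F (p ^ k) (r j₀) := by
          intro z hz
          refine h.inv_pw hF (p ^ k) _ _ (hrat.rel ?_)
          rw [order_root hp (i := p • j₀) (j := j₀ + z) (by rw [smul_add, hz, add_zero]) hi,
            order_root hp (i := p • j₀) (j := j₀) rfl hi]
        rw [sum_fibre_const hpm (fun j => pw F (p ^ k) (r j)) j₀ h3, pow_succ']
        refine mul_dvd_mul_left _ (ih j₀ ?_)
        exact hi.trans (order_nsmul_dvd p j₀)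
      · have : univ.filter (fun j : ZMod m => p • j = i) = ∅ := by
          rw [Finset.filter_eq_empty_iff]
          intro j _ hj
          exact hex ⟨j, hj⟩
        rw [this, sum_empty]
        exact dvd_zero _
    have := dvd_add h1 h2
    simpa using this

theorem frob_V (h : PS rr) (hm : 2 ≤ m) (hrat : Rat rr) (hp : p.Prime) (hp2 : p ≠ 2) (hpm : p ∣ m)
    {v : DihedralGroup m → ℤ} (hv : V rr p v) (x : DihedralGroup m) : (p : ℤ) ∣ pw v p x - v x := by
  refine h.congr_of_rot hm (h.inv_pw hv.1 p) hv.1 (fun i => ?_) x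
  have h1 := h.frob hv.1 hp hp2 i
  have h2 : ∑ j ∈ univ.filter (fun j : ZMod m => p • j = i), v (r j) = v (r i) := by
    by_cases hi : p ∣ addOrderOf i
    · rw [hv.2 i hi]
      refine Finset.sum_eq_zero (fun j hj => ?_)
      simp only [mem_filter, mem_univ, true_and] at hj
      refine hv.2 j ?_
      rw [order_root hp hj hi]
      exact dvd_mul_right _ _
    · obtain ⟨j₀, hj₀, hord⟩ := exists_reg_root hp hi
      have hreg : ¬ p ∣ addOrderOf j₀ := by rwa [hord]
      rw [Finset.sum_eq_single j₀]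
      · exact hv.1 _ _ (hrat.rel hord)
      · intro j hj hne
        simp only [mem_filter, mem_univ, true_and] at hj
        apply hv.2 j
        by_contra hcon
        exact hne (reg_root_unique hp hcon hreg (by rw [hj, hj₀]))
      · intro hj
        exact absurd (by simpa using hj₀) hj
  rwa [h2] at h1

theorem pw_congr {c : ℤ} {F G : DihedralGroup m → ℤ} (hFG : ∀ x, c ∣ F x - G x) (n : ℕ)
    (x : DihedralGroup m) : c ∣ pw F n x - pw G n x := by
  induction n generalizing x with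
  | zero => rw [pw_zero, pw_zero, sub_self]; exact dvd_zero _
  | succ n ih => rw [pw_succ, pw_succ]; exact conv_congr ih hFG x

theorem frob_V_pow (h : PS rr) (hm : 2 ≤ m) (hrat : Rat rr) (hp : p.Prime) (hp2 : p ≠ 2) (hpm : p ∣ m)
    {v : DihedralGroup m → ℤ} (hv : V rr p v) (n : ℕ) (x : DihedralGroup m) :
    (p : ℤ) ∣ pw v (p ^ n) x - v x := by
  induction n generalizing x with
  | zero => rw [pow_zero, pw_one, sub_self]; exact dvd_zero _
  | succ n ih =>
    rw [pow_succ, ← pw_pw]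
    have h1 := pw_congr ih p x
    have h2 := h.frob_V hm hrat hp hp2 hpm hv x
    have := dvd_add h1 h2
    simpa using this

open Classical in
/-- one step of the expansion of an element of `V`. -/
theorem expand (h : PS rr) (hm : 2 ≤ m) (hrat : Rat rr) (hp : p.Prime) (hp2 : p ≠ 2) (hpm : p ∣ m)
    {v : DihedralGroup m → ℤ} (hv : V rr p v) (n : ℕ) :
    ∃ v' g, V rr p v' ∧ Inv rr g ∧ v = pw v (p ^ (n + 1)) + (p : ℤ) • v' + ((p : ℤ) ^ (n + 1)) • g := by
  have hp0 : (p : ℤ) ≠ 0 := by exact_mod_cast hp.ne_zero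
  set w : DihedralGroup m → ℤ := pw v (p ^ (n + 1)) with hw
  have hwI : Inv rr w := h.inv_pw hv.1 _
  have h1 : ∀ x, (p : ℤ) ∣ v x - w x := by
    intro x
    have := h.frob_V_pow hm hrat hp hp2 hpm hv (n + 1) x
    rw [dvd_sub_comm]
    exact this
  set f : DihedralGroup m → ℤ := fun x => (v x - w x) / p with hf
  have hfx : ∀ x, p * f x = v x - w x := fun x => Int.mul_ediv_cancel' (h1 x)
  have hfI : Inv rr f := by
    intro x y hxy
    rw [hf]
    simp only [hv.1 x y hxy, hwI x y hxy]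
  -- classes containing a singular rotation
  let Sg : DihedralGroup m → Prop := fun x => ∃ i : ZMod m, p ∣ addOrderOf i ∧ rr x (r i)
  have hSg : ∀ x y, rr x y → (Sg x ↔ Sg y) := by
    intro x y hxy
    constructor
    · rintro ⟨i, hi, hx⟩; exact ⟨i, hi, h.equiv.trans (h.equiv.symm hxy) hx⟩
    · rintro ⟨i, hi, hx⟩; exact ⟨i, hi, h.equiv.trans hxy hx⟩
  have hdiv : ∀ x, Sg x → ((p : ℤ) ^ n) ∣ f x := by
    rintro x ⟨i, hi, hx⟩
    rw [hfI _ _ hx]
    have h2 : ((p : ℤ) ^ (n + 1)) ∣ p * f (r i) := by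
      rw [hfx, hv.2 i hi, zero_sub, dvd_neg, hw]
      exact h.tower_sing hrat hp hp2 hpm hv.1 (n + 1) i hi
    rw [pow_succ'] at h2
    exact (mul_dvd_mul_iff_left hp0).mp h2
  let g : DihedralGroup m → ℤ := fun x => if Sg x then f x / (p : ℤ) ^ n else 0
  have hgI : Inv rr g := by
    intro x y hxy
    simp only [g, hSg x y hxy, hfI x y hxy]
  refine ⟨f - ((p : ℤ) ^ n) • g, g, ⟨inv_sub hfI (inv_smul _ hgI), ?_⟩, hgI, ?_⟩
  · intro i hi
    have h2 : Sg (r i) := ⟨i, hi, h.equiv.refl _⟩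
    simp only [Pi.sub_apply, Pi.smul_apply, smul_eq_mul, g, if_pos h2]
    rw [Int.mul_ediv_cancel' (hdiv _ h2), sub_self]
  · funext x
    simp only [Pi.add_apply, Pi.smul_apply, Pi.sub_apply, smul_eq_mul]
    have := hfx x
    rw [pow_succ']
    linear_combination (-1 : ℤ) * this

/-- the multiplication lemma -/
theorem lemX (h : PS rr) (hm : 2 ≤ m) (hrat : Rat rr) (hp : p.Prime) (hp2 : p ≠ 2) (hpm : p ∣ m) (n : ℕ)
    {G : DihedralGroup m → ℤ} (hG : Inv rr G)
    (hQ : ∀ u, Inv rr u → Vn rr p (n + 1) (conv (pw u (p ^ (n + 1))) G))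
    {v : DihedralGroup m → ℤ} (hv : V rr p v) : Vn rr p (n + 1) (conv v G) := by
  have key : ∀ k ≤ n + 1, ∃ S v' g, Vn rr p (n + 1) (conv S G) ∧ V rr p v' ∧ Inv rr g ∧
      v = S + ((p : ℤ) ^ k) • v' + ((p : ℤ) ^ (n + 1)) • g := by
    intro k
    induction k with
    | zero =>
      intro _
      refine ⟨0, v, 0, ?_, hv, inv_zero', ?_⟩
      · rw [conv_zero_left]
        exact ⟨inv_zero', fun i _ => dvd_zero _⟩
      · simp
    | succ k ih =>
      intro hk
      obtain ⟨S, v', g, hS, hv', hg, heq⟩ := ih (by omega)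
      obtain ⟨v'', g', hv'', hg', heq'⟩ := h.expand hm hrat hp hp2 hpm hv' n
      refine ⟨S + ((p : ℤ) ^ k) • pw v' (p ^ (n + 1)), v'', g + ((p : ℤ) ^ k) • g', ?_, hv'',
        inv_add hg (inv_smul _ hg'), ?_⟩
      · rw [conv_add_left, conv_smul_left]
        exact Vn_add hS (Vn_smul _ (hQ v' hv'.1))
      · rw [heq]
        conv_lhs => rw [heq']
        funext x
        simp only [Pi.add_apply, Pi.smul_apply, smul_eq_mul]
        ring
  obtain ⟨S, v', g, hS, hv', hg, heq⟩ := key (n + 1) le_rfl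
  have h1 : v = S + ((p : ℤ) ^ (n + 1)) • (v' + g) := by
    rw [heq, smul_add, add_assoc]
  rw [h1, conv_add_left, conv_smul_left]
  exact Vn_add hS (Vn_pow_smul (h.mul _ _ (inv_add hv'.1 hg) hG))

/-- `V` is closed under multiplication -/
theorem V_mul (h : PS rr) (hm : 2 ≤ m) (hrat : Rat rr) (hp : p.Prime) (hp2 : p ≠ 2) (hpm : p ∣ m)
    {v w : DihedralGroup m → ℤ} (hv : V rr p v) (hw : V rr p w) : V rr p (conv v w) := by
  refine ⟨h.mul _ _ hv.1 hw.1, fun i hi => ?_⟩
  have key : ∀ n, Vn rr p (n + 1) (conv v w) := by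
    intro n
    refine h.lemX hm hrat hp hp2 hpm n hw.1 (fun u hu => ?_) hv
    rw [h.comm (h.inv_pw hu _) hw.1]
    refine h.lemX hm hrat hp hp2 hpm n (h.inv_pw hu _) (fun u' hu' => ?_) hw
    rw [← h.pw_conv hu' hu]
    exact ⟨h.inv_pw (h.mul _ _ hu' hu) _, fun i hi =>
      h.tower_sing hrat hp hp2 hpm (h.mul _ _ hu' hu) (n + 1) i hi⟩
  by_contra hne
  have h1 := (key (conv v w (r i)).natAbs).2 i hi
  have h2 := Int.natAbs_dvd_natAbs.mpr h1
  have h3 := Nat.le_of_dvd (Int.natAbs_pos.mpr hne) h2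
  rw [Int.natAbs_pow, Int.natAbs_natCast] at h3
  have h4 : (conv v w (r i)).natAbs + 1 < p ^ ((conv v w (r i)).natAbs + 1) := Nat.lt_pow_self hp.one_lt
  omega

/-- every nontrivial class contains a `p`-singular rotation. -/
theorem exists_sing (h : PS rr) (hm : 2 ≤ m) (hrat : Rat rr) (hp : p.Prime) (hp2 : p ≠ 2) (hpm : p ∣ m)
    {x : DihedralGroup m} (hx : x ≠ 1) : ∃ i : ZMod m, p ∣ addOrderOf i ∧ rr x (r i) := by
  let Sg : DihedralGroup m → Prop := fun x => ∃ i : ZMod m, p ∣ addOrderOf i ∧ rr x (r i)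
  have hSg : ∀ x y, rr x y → Sg y → Sg x := by
    rintro x y hxy ⟨i, hi, hx⟩
    exact ⟨i, hi, h.equiv.trans hxy hx⟩
  have hsat : Sat rr {x | ¬ Sg x} := fun x y hxy hx hy => hx (hSg x y hxy hy)
  have hV : V rr p (ind {x | ¬ Sg x}) := by
    refine ⟨sat_ind h hsat, fun i hi => ?_⟩
    apply ind_of_notMem
    intro hcon
    exact hcon ⟨i, hi, h.equiv.refl _⟩
  have hVV := h.V_mul hm hrat hp hp2 hpm hV hV
  have hmul : ∀ a b, ¬ Sg a → ¬ Sg b → ¬ Sg (a * b) := by
    rintro a b ha hb ⟨i, hi, hab⟩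
    have h1 : conv (ind {x | ¬ Sg x}) (ind {x | ¬ Sg x}) (a * b) = 0 := by
      rw [hVV.1 _ _ hab]
      exact hVV.2 i hi
    have h2 : ind {x | ¬ Sg x} a * ind {x | ¬ Sg x} (a⁻¹ * (a * b)) ≤
        conv (ind {x | ¬ Sg x}) (ind {x | ¬ Sg x}) (a * b) :=
      Finset.single_le_sum (f := fun z => ind {x | ¬ Sg x} z * ind {x | ¬ Sg x} (z⁻¹ * (a * b)))
        (fun z _ => mul_nonneg (ind_nonneg _ _) (ind_nonneg _ _)) (mem_univ a)
    rw [inv_mul_cancel_left, ind_of_mem (show a ∈ {x | ¬ Sg x} from ha),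
      ind_of_mem (show b ∈ {x | ¬ Sg x} from hb), h1] at h2
    omega
  let K : Subgroup (DihedralGroup m) :=
    { carrier := {x | ¬ Sg x}
      one_mem' := by
        rintro ⟨i, hi, h1⟩
        have h2 := h.one _ h1
        have h3 : i = 0 := by
          rw [one_def] at h2
          injection h2
        rw [h3, addOrderOf_zero] at hi
        exact hp.one_lt.ne' (Nat.dvd_one.mp hi)
      mul_mem' := fun {a b} ha hb => hmul a b ha hb
      inv_mem' := fun {a} ha => hsat _ _ (h.symm_of rot_ne_top inv_of_notMem a) ha }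
  by_contra hcon
  rcases h.prim K hsat with h1 | h1
  · have : x ∈ K := hcon
    rw [h1] at this
    exact hx this
  · have : (r 1 : DihedralGroup m) ∈ K := by rw [h1]; trivial
    apply this
    refine ⟨1, ?_, h.equiv.refl _⟩
    rw [ZMod.addOrderOf_one]
    exact hpm

/-- classes outside the `p`-torsion are invariant under `p`-torsion translations. -/
theorem rel_add_tor (h : PS rr) (hm : 2 ≤ m) (hrat : Rat rr) (hp : p.Prime) (hp2 : p ≠ 2) (hpm : p ∣ m)
    {i z : ZMod m} (hz : p • z = 0) (hi : p • i ≠ 0) : rr (r i) (r (i + z)) := by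
  have hF : Inv rr (ind {y | rr (r i) y}) := sat_ind h (h.sat_class _)
  have hP := h.inv_pw hF p
  have h1 : ∀ x : DihedralGroup m, x ≠ 1 → (p : ℤ) ∣ pw (ind {y | rr (r i) y}) p x := by
    intro x hx
    obtain ⟨l, hl, hxl⟩ := h.exists_sing hm hrat hp hp2 hpm hx
    rw [hP _ _ hxl]
    have := h.tower_sing hrat hp hp2 hpm hF 1 l hl
    simpa using this
  have hne : (r (p • i) : DihedralGroup m) ≠ 1 := by
    rw [one_def]
    intro h'
    exact hi (by injection h')
  have h2 := h1 _ hne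
  have h3 := h.frob hF hp hp2 (p • i)
  have h4 : (p : ℤ) ∣ ∑ j ∈ univ.filter (fun j : ZMod m => p • j = p • i), ind {y | rr (r i) y} (r j) := by
    have := dvd_sub h2 h3
    simpa using this
  rw [sum_fibre] at h4
  have hle : ∀ w ∈ univ.filter (fun z : ZMod m => p • z = 0), ind {y | rr (r i) y} (r (i + w)) ≤ 1 :=
    fun w _ => ind_le _ _
  have hcard : ∑ _w ∈ univ.filter (fun z : ZMod m => p • z = 0), (1 : ℤ) = p := by
    rw [sum_const, card_tor hpm]; simp
  have h0 : (0 : ZMod m) ∈ univ.filter (fun z : ZMod m => p • z = 0) := by simp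
  have hpos : 1 ≤ ∑ w ∈ univ.filter (fun z : ZMod m => p • z = 0), ind {y | rr (r i) y} (r (i + w)) := by
    have := Finset.single_le_sum (f := fun w : ZMod m => ind {y | rr (r i) y} (r (i + w)))
      (fun w _ => ind_nonneg _ _) h0
    simp only [add_zero] at this
    rwa [ind_one (h.equiv.refl (r i))] at this
  have h5 := Int.le_of_dvd (by omega) h4
  have h6 : ∑ w ∈ univ.filter (fun z : ZMod m => p • z = 0), ind {y | rr (r i) y} (r (i + w)) =
      ∑ _w ∈ univ.filter (fun z : ZMod m => p • z = 0), (1 : ℤ) := by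
    apply le_antisymm (Finset.sum_le_sum hle)
    rw [hcard]
    exact h5
  have h7 := (Finset.sum_eq_sum_iff_of_le hle).mp h6 z (by simpa using hz)
  exact mem_of_ind_ne (T := {y | rr (r i) y}) (by rw [h7]; norm_num)

end PS

end Cfsg.Agent.H93.DB
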