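import Mathlib

/-!
Integer arithmetic for the difference set argument.
-/

set_option autoImplicit false

namespace Cfsg.Agent.H93.DB

theorem num_two {m k : ℤ} (hm : 11 ≤ m) (R : k ^ 2 - 2 * m * k + (2 * m - 1) * 4 = 0) : False := by
  have h1 : (k - m) ^ 2 = (m - 4) ^ 2 - 12 := by linear_combination R
  have h2 : (m - 5) ^ 2 < (k - m) ^ 2 := by rw [h1]; nlinarith
  have h3 : (k - m) ^ 2 < (m - 4) ^ 2 := by rw [h1]; linarith
  have h4 : |m - 5| < |k - m| := sq_lt_sq.mp h2
  have h5 : |k - m| < |m - 4| := sq_lt_sq.mp h3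
  rw [abs_of_pos (by linarith : (0 : ℤ) < m - 5)] at h4
  rw [abs_of_pos (by linarith : (0 : ℤ) < m - 4)] at h5
  omega

theorem num_aux {m q k e : ℤ} (hq : 3 ≤ q) (hm : 2 ≤ m) (he : 1 ≤ e)
    (R : k ^ 2 - 2 * m * k + (2 * m - 1) * e ^ 2 = 0) (J : e * ((q - 2) * m + q) ≤ q * (m - 2))
    (hk1 : 2 ≤ k) (hk2 : k ≤ 2 * m - 2) : False := by
  have hpos : 0 < (q - 2) * m + q := by nlinarith
  rcases lt_or_ge e 2 with h | h
  · have : e = 1 := by omega
    subst this
    have h1 : (k - 1) * (k - (2 * m - 1)) = 0 := by linear_combination R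
    rcases mul_eq_zero.mp h1 with h2 | h2 <;> omega
  · have h1 : 2 * ((q - 2) * m + q) ≤ e * ((q - 2) * m + q) := by nlinarith
    have h2 : (q - 4) * m + 4 * q ≤ 0 := by nlinarith
    have h3 : q = 3 := by
      by_contra hne
      have : 4 ≤ q := by omega
      nlinarith
    subst h3
    have h4 : 12 ≤ m := by linarith
    have h5 : e < 3 := by
      by_contra hcon
      have : 3 ≤ e := by omega
      nlinarith
    have h6 : e = 2 := by omega
    subst h6
    exact num_two (m := m) (k := k) (by omega) (by linear_combination R)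

theorem num_one {m q α β n : ℤ} (hq : 3 ≤ q) (hm : 2 ≤ m) (h1 : n = (α - β) ^ 2)
    (h2 : m * (α + β - n) = 2 * α * β) (h3 : q * α * (m - α) ≤ (m - q) * n) (hk1 : 2 ≤ α + β)
    (hk2 : α + β ≤ 2 * m - 2) : False := by
  subst h1
  have R : (α + β) ^ 2 - 2 * m * (α + β) + (2 * m - 1) * (α - β) ^ 2 = 0 := by
    linear_combination (-2 : ℤ) * h2
  have I : (α - β) ^ 2 * ((q - 2) * m + q) ≤ q * (α - β) * (α + β - m) := by
    have h4 : 4 * (q * α * (m - α)) = q * ((2 * m - 2) * (α - β) ^ 2 + 2 * (α - β) * (m - (α + β))) := by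
      linear_combination (-q) * R
    nlinarith
  rcases lt_trichotomy (α - β) 0 with hd | hd | hd
  · refine num_aux (k := α + β) (e := β - α) hq hm (by omega) (by linear_combination R) ?_ hk1 hk2
    have h5 : (β - α) * ((β - α) * ((q - 2) * m + q)) ≤ (β - α) * (q * (m - (α + β))) := by
      linarith [I, show (α - β) ^ 2 * ((q - 2) * m + q) = (β - α) * ((β - α) * ((q - 2) * m + q)) by ring,
        show q * (α - β) * (α + β - m) = (β - α) * (q * (m - (α + β))) by ring]
    have h6 := le_of_mul_le_mul_left h5 (by omega)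
    nlinarith
  · have h5 : (α + β) * (α + β - 2 * m) = 0 := by
      rw [hd] at R
      linear_combination R
    rcases mul_eq_zero.mp h5 with h6 | h6 <;> omega
  · refine num_aux (k := α + β) (e := α - β) hq hm (by omega) (by linear_combination R) ?_ hk1 hk2
    have h5 : (α - β) * ((α - β) * ((q - 2) * m + q)) ≤ (α - β) * (q * (α + β - m)) := by
      linarith [I, show (α - β) ^ 2 * ((q - 2) * m + q) = (α - β) * ((α - β) * ((q - 2) * m + q)) by ring,
        show q * (α - β) * (α + β - m) = (α - β) * (q * (α + β - m)) by ring]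
    have h6 := le_of_mul_le_mul_left h5 (by omega)
    nlinarith

/-- Cauchy-Schwarz consequence -/
theorem num_cs {m q α n S2 : ℤ} (hS : m * S2 = n * α * (m - α) + α ^ 4)
    (hcs : (α ^ 2 - q * α) ^ 2 ≤ (m - q) * (S2 - q * α ^ 2)) (hm : 0 < m) (hα : 0 < α) (hαm : α < m) :
    q * α * (m - α) ≤ (m - q) * n := by
  have h2 : m * (α ^ 2 - q * α) ^ 2 ≤ m * ((m - q) * (S2 - q * α ^ 2)) :=
    mul_le_mul_of_nonneg_left hcs hm.le
  have h3 : 0 ≤ α * (m - α) * ((m - q) * n - q * α * (m - α)) := by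
    have h4 : m * ((m - q) * (S2 - q * α ^ 2)) = (m - q) * (n * α * (m - α) + α ^ 4) - m * (m - q) * (q * α ^ 2) := by
      linear_combination (m - q) * hS
    nlinarith
  have h5 : 0 < α * (m - α) := mul_pos hα (by linarith)
  have h6 : 0 ≤ (m - q) * n - q * α * (m - α) := by
    by_contra hcon
    push Not at hcon
    nlinarith
  linarith

end Cfsg.Agent.H93.DB
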