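import Cfsg.Agent.H93.DB.Clo
import Cfsg.Agent.H93.DB.Num

/-!
The difference set and its numerical consequences.
-/

set_option autoImplicit false
set_option linter.unusedSectionVars false
set_option linter.unusedVariables false

open Finset DihedralGroup

namespace Cfsg.Agent.H93.DB

variable {m : ℕ} [NeZero m] {rr : DihedralGroup m → DihedralGroup m → Prop}

theorem conv_r (F G : DihedralGroup m → ℤ) (i : ZMod m) :
    conv F G (r i) = ∑ j, F (r j) * G (r (i - j)) + ∑ j, F (sr j) * G (sr (i + j)) := by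
  rw [conv, sum_dih]
  congr 1
  · refine Finset.sum_congr rfl (fun j _ => ?_)
    congr 2
    simp [sub_eq_neg_add]
  · refine Finset.sum_congr rfl (fun j _ => ?_)
    congr 2
    simp [add_comm]

theorem conv_sr (F G : DihedralGroup m → ℤ) (i : ZMod m) :
    conv F G (sr i) = ∑ j, F (r j) * G (sr (i + j)) + ∑ j, F (sr j) * G (r (i - j)) := by
  rw [conv, sum_dih]
  congr 1
  · refine Finset.sum_congr rfl (fun j _ => ?_)
    congr 2
    simp [sub_eq_add_neg]
  
namespace PS

/-- `p`-torsion invariance of the rotation part -/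
theorem ind_tor (h : PS rr) {p : ℕ} (hE1 : ∀ i z : ZMod m, p • z = 0 → p • i ≠ 0 → rr (r i) (r (i + z)))
    (hE2 : ∀ z z' : ZMod m, z ≠ 0 → z' ≠ 0 → p • z = 0 → p • z' = 0 → rr (r z) (r z'))
    {z₀ : ZMod m} (hz₀ : z₀ ≠ 0) (hpz₀ : p • z₀ = 0) {x : DihedralGroup m} (hx : x ≠ 1)
    (hxz : ¬ rr x (r z₀)) {i z : ZMod m} (hz : p • z = 0) :
    ind {y | rr x y} (r (i + z)) = ind {y | rr x y} (r i) := by
  have htor : ∀ j : ZMod m, p • j = 0 → ind {y | rr x y} (r j) = 0 := by
    intro j hj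
    apply ind_zero
    intro hcon
    by_cases hj0 : j = 0
    · subst hj0
      exact hx (h.one' hcon)
    · exact hxz (h.equiv.trans hcon (hE2 j z₀ hj0 hz₀ hj hpz₀))
  by_cases hi : p • i = 0
  · rw [htor i hi, htor (i + z) (by rw [smul_add, hi, hz, add_zero])]
  · exact ((sat_ind h (h.sat_class x)) _ _ (hE1 i z hz hi)).symm

/-- the square of a class away from the `p`-torsion -/
theorem diff_set (h : PS rr) {p : ℕ} (hE1 : ∀ i z : ZMod m, p • z = 0 → p • i ≠ 0 → rr (r i) (r (i + z)))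
    (hE2 : ∀ z z' : ZMod m, z ≠ 0 → z' ≠ 0 → p • z = 0 → p • z' = 0 → rr (r z) (r z'))
    {z₀ : ZMod m} (hz₀ : z₀ ≠ 0) (hpz₀ : p • z₀ = 0) {x : DihedralGroup m} (hx : x ≠ 1)
    (hxz : ¬ rr x (r z₀)) :
    ∃ n y : ℤ, ∀ w, conv (ind {y | rr x y}) (ind {y | rr x y}) w = n * dl w + y := by
  set F : DihedralGroup m → ℤ := ind {y | rr x y} with hFdef
  have hF : Inv rr F := sat_ind h (h.sat_class x)
  have hFt : ∀ i z : ZMod m, p • z = 0 → F (r (i + z)) = F (r i) := fun i z hz =>
    h.ind_tor hE1 hE2 hz₀ hpz₀ hx hxz hz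
  set H := conv F F with hHdef
  have hH : Inv rr H := h.mul _ _ hF hF
  set n : ℤ := H 1 - H (r z₀) with hn
  obtain ⟨κ, hκd⟩ : ∃ κ : DihedralGroup m → ℤ, κ = H - n • dl := ⟨_, rfl⟩
  have hκ : Inv rr κ := by rw [hκd]; exact inv_sub hH (inv_smul n h.inv_dl)
  have hκx : ∀ w, κ w = H w - n * dl w := fun w => by rw [hκd]; rfl
  have hz₀1 : (r z₀ : DihedralGroup m) ≠ 1 := by
    rw [one_def]
    intro h'
    exact hz₀ (by injection h')
  have hdl : ∀ w : DihedralGroup m, w ≠ 1 → dl w = 0 := fun w hw => by unfold dl; rw [if_neg hw]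
  have hr1 : ∀ j : ZMod m, (r j : DihedralGroup m) ≠ 1 ↔ j ≠ 0 := by
    intro j
    rw [one_def, Ne, r.injEq]
  have hκtor : ∀ j : ZMod m, p • j = 0 → κ (r j) = H (r z₀) := by
    intro j hj
    by_cases hj0 : j = 0
    · subst hj0
      have h1 : (r 0 : DihedralGroup m) = 1 := rfl
      rw [hκx, h1]
      unfold dl
      rw [if_pos rfl, hn]
      ring
    · rw [hκx, hdl _ ((hr1 j).mpr hj0), mul_zero, sub_zero]
      exact hH _ _ (hE2 j z₀ hj0 hz₀ hj hpz₀)
  have htr : ∀ w, κ (r z₀ * w) = κ w := by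
    intro w
    cases w with
    | r i =>
      rw [r_mul_r]
      by_cases hi : p • i = 0
      · rw [hκtor i hi, hκtor (z₀ + i) (by rw [smul_add, hpz₀, hi, add_zero])]
      · rw [add_comm z₀ i]
        exact (hκ _ _ (hE1 i z₀ hpz₀ hi)).symm
    | sr i =>
      rw [r_mul_sr]
      have h1 : ∀ j : ZMod m, dl (sr j : DihedralGroup m) = 0 := fun j => hdl _ (by
        rw [one_def]; intro h'; cases h')
      rw [hκx, hκx, h1, h1, hHdef, conv_sr, conv_sr]
      congr 1
      congr 1
      · rw [← Equiv.sum_comp (Equiv.addRight z₀) (fun j => F (r j) * F (sr (i - z₀ + j)))]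
        refine Finset.sum_congr rfl (fun j _ => ?_)
        simp only [Equiv.coe_addRight]
        rw [hFt j z₀ hpz₀]
        congr 3
        ring
      · refine Finset.sum_congr rfl (fun j _ => ?_)
        congr 1
        have h2 := hFt (i - j) (-z₀) (by rw [smul_neg, hpz₀, neg_zero])
        rw [← h2]
        congr 2
        ring
  refine ⟨n, κ 1, fun w => ?_⟩
  have h2 := h.const_of_translate hκ hz₀1 htr w 1
  rw [← h2, hκx]
  ring

end PS

/-- all-one element -/
noncomputable def CC (m : ℕ) [NeZero m] : Z m := toZ (fun _ => 1)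

theorem mul_CC (x : Z m) : x * CC m = ((∑ i, x.coeff i : ℤ) : Z m) * CC m := by
  apply Z_ext
  intro i
  rw [coeff_mulZ, ← zsmul_eq_mul, AddMonoidAlgebra.coeff_smul]
  simp [CC]

theorem coeff_intCast_mul (n : ℤ) (x : Z m) (i : ZMod m) : ((n : Z m) * x).coeff i = n * x.coeff i := by
  rw [← zsmul_eq_mul, AddMonoidAlgebra.coeff_smul]
  simp

/-- basic identities for a difference set -/
theorem dif_ids {F : DihedralGroup m → ℤ} (hsym : ∀ x, F x⁻¹ = F x) {n y : ℤ}
    (hF : ∀ w, conv F F w = n * dl w + y) :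
    aF F ^ 2 + bF F * st (bF F) = (n : Z m) + (y : Z m) * CC m ∧ 2 * aF F * bF F = (y : Z m) * CC m := by
  have hst : st (aF F) = aF F := by
    apply Z_ext
    intro i
    rw [coeff_st, coeff_aF, coeff_aF]
    exact hsym (r i)
  have h1 : aF (conv F F) = (n : Z m) + (y : Z m) * CC m := by
    apply Z_ext
    intro i
    have e1 : ((n : Z m)).coeff i = n * dl (r i : DihedralGroup m) := by
      have : (n : Z m) = (n : Z m) * 1 := by ring
      rw [this, coeff_intCast_mul, AddMonoidAlgebra.one_def, AddMonoidAlgebra.coeff_single, Finsupp.single_apply]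
      have h1 : (r i : DihedralGroup m) = 1 ↔ 0 = i := by
        rw [one_def, r.injEq, eq_comm]
      unfold dl
      simp only [h1]
    rw [coeff_aF, hF, AddMonoidAlgebra.coeff_add, Finsupp.add_apply, e1, coeff_intCast_mul]
    simp [CC]
  have h2 : bF (conv F F) = (y : Z m) * CC m := by
    apply Z_ext
    intro i
    rw [coeff_bF, hF, coeff_intCast_mul]
    have h1 : ¬ ((sr (-i) : DihedralGroup m) = 1) := by
      intro h
      rw [one_def] at h
      cases h
    unfold dl
    rw [if_neg h1]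
    simp [CC]
  rw [aF_conv] at h1
  rw [bF_conv, hst] at h2
  refine ⟨by rw [← h1]; ring, by rw [← h2]; ring⟩

end Cfsg.Agent.H93.DB
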