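import Mathlib

/-!
Combinatorial Schur rings over a finite group, given by the relation "same class".
-/

set_option autoImplicit false
set_option linter.unusedSectionVars false
set_option linter.unusedVariables false

open Finset

namespace Cfsg.Agent.H93.DB

variable {D : Type*} [Group D] [Fintype D] [DecidableEq D]

/-- convolution -/
def conv (F G : D → ℤ) (x : D) : ℤ := ∑ y, F y * G (y⁻¹ * x)

/-- class functions -/
def Inv (r : D → D → Prop) (F : D → ℤ) : Prop := ∀ x y, r x y → F x = F y

/-- a primitive Schur ring -/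
structure PS (r : D → D → Prop) : Prop where
  equiv : Equivalence r
  one : ∀ x, r 1 x → x = 1
  inv : ∀ x y, r x y → r x⁻¹ y⁻¹
  mul : ∀ F G, Inv r F → Inv r G → Inv r (conv F G)
  prim : ∀ K : Subgroup D, (∀ x y, r x y → x ∈ K → y ∈ K) → K = ⊥ ∨ K = ⊤

/-- the unit -/
def dl (x : D) : ℤ := if x = 1 then 1 else 0

theorem conv_dl_left (F : D → ℤ) : conv dl F = F := by
  funext x
  rw [conv, Finset.sum_eq_single 1]
  · simp [dl]
  · intro y _ hy; simp [dl, hy]
  · simp

theorem conv_dl_right (F : D → ℤ) : conv F dl = F := by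
  funext x
  rw [conv, Finset.sum_eq_single x]
  · simp [dl]
  · intro y _ hy
    have : ¬ (y⁻¹ * x = 1) := by
      intro h
      exact hy (inv_mul_eq_one.mp h)
    simp [dl, this]
  · simp

variable {r : D → D → Prop}

namespace PS

theorem one' (h : PS r) {x : D} (hx : r x 1) : x = 1 := h.one x (h.equiv.symm hx)

theorem inv_dl (h : PS r) : Inv r (dl : D → ℤ) := by
  intro x y hxy
  unfold dl
  by_cases hx : x = 1
  · subst hx
    rw [h.one y hxy]
  · by_cases hy : y = 1
    · subst hy
      exact absurd (h.one' hxy) hx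
    · simp [hx, hy]

theorem inv_add {F G : D → ℤ} (hF : Inv r F) (hG : Inv r G) : Inv r (F + G) := by
  intro x y hxy
  simp only [Pi.add_apply, hF x y hxy, hG x y hxy]

theorem inv_sub {F G : D → ℤ} (hF : Inv r F) (hG : Inv r G) : Inv r (F - G) := by
  intro x y hxy
  simp only [Pi.sub_apply, hF x y hxy, hG x y hxy]

theorem inv_smul {F : D → ℤ} (c : ℤ) (hF : Inv r F) : Inv r (c • F) := by
  intro x y hxy
  simp only [Pi.smul_apply, hF x y hxy]

theorem inv_inv (h : PS r) {F : D → ℤ} (hF : Inv r F) : Inv r (fun x => F x⁻¹) := by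
  intro x y hxy
  exact hF _ _ (h.inv x y hxy)

open Classical in
/-- indicator of a set -/
noncomputable def ind (T : Set D) (x : D) : ℤ := if x ∈ T then 1 else 0

theorem ind_nonneg (T : Set D) (x : D) : 0 ≤ ind T x := by
  unfold ind; split_ifs <;> norm_num

theorem ind_le (T : Set D) (x : D) : ind T x ≤ 1 := by
  unfold ind; split_ifs <;> norm_num

theorem ind_of_mem {T : Set D} {x : D} (hx : x ∈ T) : ind T x = 1 := by
  unfold ind; rw [if_pos hx]

theorem ind_of_notMem {T : Set D} {x : D} (hx : x ∉ T) : ind T x = 0 := by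
  unfold ind; rw [if_neg hx]

theorem mem_of_ind_ne {T : Set D} {x : D} (hx : ind T x ≠ 0) : x ∈ T := by
  by_contra h
  exact hx (ind_of_notMem h)

/-- saturated sets -/
def Sat (r : D → D → Prop) (T : Set D) : Prop := ∀ x y, r x y → x ∈ T → y ∈ T

theorem sat_ind (h : PS r) {T : Set D} (hT : Sat r T) : Inv r (ind T) := by
  intro x y hxy
  by_cases hx : x ∈ T
  · rw [ind_of_mem hx, ind_of_mem (hT x y hxy hx)]
  · have hy : y ∉ T := fun hy => hx (hT y x (h.equiv.symm hxy) hy)
    rw [ind_of_notMem hx, ind_of_notMem hy]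

theorem sat_level (h : PS r) {F : D → ℤ} (hF : Inv r F) (P : ℤ → Prop) : Sat r {x | P (F x)} := by
  intro x y hxy hx
  have := hF x y hxy
  simp only [Set.mem_ofPred_eq] at hx ⊢
  rwa [← this]

/-- the subgroup generated by a saturated set is saturated. -/
theorem sat_closure (h : PS r) {T : Set D} (hT : Sat r T) : Sat r (Subgroup.closure T : Set D) := by
  have hξ : Inv r (ind T) := sat_ind h hT
  let ξ : ℕ → D → ℤ := fun n => Nat.rec dl (fun _ f => conv f (ind T)) n
  have hξ0 : ξ 0 = dl := rfl
  have hξs : ∀ n, ξ (n + 1) = conv (ξ n) (ind T) := fun n => rfl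
  have hinv : ∀ n, Inv r (ξ n) := by
    intro n
    induction n with
    | zero => exact h.inv_dl
    | succ n ih => rw [hξs]; exact h.mul _ _ ih hξ
  have hnn : ∀ n x, 0 ≤ ξ n x := by
    intro n
    induction n with
    | zero => intro x; rw [hξ0]; unfold dl; split_ifs <;> norm_num
    | succ n ih =>
      intro x
      rw [hξs]
      exact Finset.sum_nonneg (fun y _ => mul_nonneg (ih y) (ind_nonneg _ _))
  have h1 : ∀ n x, ξ n x ≠ 0 → x ∈ Subgroup.closure T := by
    intro n
    induction n with
    | zero =>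
      intro x hx
      rw [hξ0] at hx
      unfold dl at hx
      split_ifs at hx with h1
      · rw [h1]; exact one_mem _
      · exact absurd rfl hx
    | succ n ih =>
      intro x hx
      rw [hξs] at hx
      obtain ⟨y, -, hy⟩ := Finset.exists_ne_zero_of_sum_ne_zero hx
      have h2 := ih y (left_ne_zero_of_mul hy)
      have h3 : y⁻¹ * x ∈ T := mem_of_ind_ne (right_ne_zero_of_mul hy)
      have h4 := mul_mem h2 (Subgroup.subset_closure h3)
      simpa using h4
  have h2 : ∀ x ∈ Subgroup.closure T, ∃ n, ξ n x ≠ 0 := by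
    intro x hx
    rw [← Subgroup.mem_toSubmonoid, Subgroup.closure_toSubmonoid_of_finite] at hx
    induction hx using Submonoid.closure_induction_right with
    | one => exact ⟨0, by rw [hξ0]; simp [dl]⟩
    | mul_right x hx y hy ih =>
      obtain ⟨n, hn⟩ := ih
      refine ⟨n + 1, ?_⟩
      rw [hξs]
      have h3 : 0 < ξ n x * ind T (x⁻¹ * (x * y)) := by
        rw [inv_mul_cancel_left, ind_of_mem hy, mul_one]
        exact lt_of_le_of_ne (hnn n x) (Ne.symm hn)
      have h4 : ξ n x * ind T (x⁻¹ * (x * y)) ≤ conv (ξ n) (ind T) (x * y) :=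
        Finset.single_le_sum (f := fun z => ξ n z * ind T (z⁻¹ * (x * y)))
          (fun z _ => mul_nonneg (hnn n z) (ind_nonneg _ _)) (mem_univ x)
      exact (lt_of_lt_of_le h3 h4).ne'
  intro x y hxy hx
  obtain ⟨n, hn⟩ := h2 x hx
  refine h1 n y ?_
  rwa [← hinv n x y hxy]

theorem closure_cases (h : PS r) {T : Set D} (hT : Sat r T) :
    (∀ x ∈ T, x = 1) ∨ Subgroup.closure T = ⊤ := by
  rcases h.prim _ (h.sat_closure hT) with h1 | h1
  · left
    intro x hx
    have : x ∈ Subgroup.closure T := Subgroup.subset_closure hx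
    rw [h1] at this
    exact this
  · exact Or.inr h1

/-- a saturated set inside a proper subgroup is trivial -/
theorem of_subset (h : PS r) {T : Set D} (hT : Sat r T) {K : Subgroup D} (hK : K ≠ ⊤) (hTK : T ⊆ K) :
    ∀ x ∈ T, x = 1 := by
  rcases h.closure_cases hT with h1 | h1
  · exact h1
  · exfalso
    apply hK
    rw [eq_top_iff, ← h1]
    exact (Subgroup.closure_le _).mpr hTK

/-- left stabilizer of a set -/
def stab (T : Set D) : Subgroup D where
  carrier := {h | ∀ x, h * x ∈ T ↔ x ∈ T}
  one_mem' := by intro x; rw [one_mul]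
  mul_mem' := by
    intro a b ha hb x
    rw [mul_assoc, ha, hb]
  inv_mem' := by
    intro a ha x
    rw [← ha (a⁻¹ * x), mul_inv_cancel_left]

theorem mem_stab {T : Set D} {h : D} : h ∈ stab T ↔ ∀ x, h * x ∈ T ↔ x ∈ T := Iff.rfl

theorem sat_stab (h : PS r) {T : Set D} (hT : Sat r T) : Sat r (stab T : Set D) := by
  have hξ : Inv r (ind T) := sat_ind h hT
  have hN : Inv r (conv (ind T) (fun x => ind T x⁻¹)) := h.mul _ _ hξ (h.inv_inv hξ)
  have key : ∀ g, g ∈ stab T ↔ conv (ind T) (fun x => ind T x⁻¹) g = ∑ y, ind T y := by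
    intro g
    unfold conv
    constructor
    · intro hg
      refine Finset.sum_congr rfl (fun y _ => ?_)
      by_cases hy : y ∈ T
      · have h1 : (y⁻¹ * g)⁻¹ ∈ T := by
          have h2 : g * (g⁻¹ * y) ∈ T := by simpa using hy
          have h3 := (hg _).mp h2
          simpa using h3
        show ind T y * ind T (y⁻¹ * g)⁻¹ = ind T y
        rw [ind_of_mem h1, mul_one]
      · rw [ind_of_notMem hy, zero_mul]
    · intro hs
      have h1 : ∀ y, ind T y * ind T (y⁻¹ * g)⁻¹ = ind T y := by
        have h2 : ∀ y ∈ univ, ind T y * ind T (y⁻¹ * g)⁻¹ ≤ ind T y := by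
          intro y _
          exact mul_le_of_le_one_right (ind_nonneg _ _) (ind_le _ _)
        intro y
        exact (Finset.sum_eq_sum_iff_of_le h2).mp hs y (mem_univ _)
      have h2 : ∀ y ∈ T, g⁻¹ * y ∈ T := by
        intro y hy
        have h3 := h1 y
        rw [ind_of_mem hy, one_mul] at h3
        have h4 : (y⁻¹ * g)⁻¹ ∈ T := mem_of_ind_ne (by rw [h3]; norm_num)
        simpa using h4
      have hfin : (T : Set D).Finite := Set.toFinite _
      have himg : (fun z => g⁻¹ * z) '' T = T := by
        apply Set.Finite.eq_of_subset_of_encard_le' hfin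
        · rintro _ ⟨z, hz, rfl⟩
          exact h2 z hz
        · rw [Function.Injective.encard_image (mul_right_injective g⁻¹)]
      intro x
      constructor
      · intro hx
        have := h2 _ hx
        simpa using this
      · intro hx
        rw [← himg] at hx
        obtain ⟨z, hz, hzx⟩ := hx
        have : z = g * x := by rw [← hzx]; simp
        rwa [← this]
  intro x y hxy hx
  have h1 := (key x).mp hx
  refine (key y).mpr ?_
  rw [← hN x y hxy, h1]

/-- an invariant function which is invariant under a nontrivial translation is constant -/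
theorem const_of_translate (h : PS r) {F : D → ℤ} (hF : Inv r F) {z : D} (hz : z ≠ 1)
    (hFz : ∀ x, F (z * x) = F x) (x y : D) : F x = F y := by
  have h1 : Sat r {x | F x = F y} := sat_level h hF (fun v => v = F y)
  have h2 : z ∈ stab {x | F x = F y} := by
    intro x
    simp only [Set.mem_ofPred_eq, hFz]
  rcases h.prim _ (h.sat_stab h1) with h3 | h3
  · rw [h3, Subgroup.mem_bot] at h2
    exact absurd h2 hz
  · have h4 : x * y⁻¹ ∈ stab {x | F x = F y} := by rw [h3]; trivial
    have h5 := (h4 y).mpr rfl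
    simpa using h5

/-- the class of an element -/
theorem sat_class (h : PS r) (x : D) : Sat r {y | r x y} := by
  intro a b hab ha
  exact h.equiv.trans ha hab

section Index2

variable {C : Subgroup D}

/-- all classes are closed under inversion when the elements outside `C` are involutions -/
theorem symm_of (h : PS r) (hC : C ≠ ⊤) (hinv : ∀ x, x ∉ C → x⁻¹ = x) (x : D) : r x x⁻¹ := by
  by_contra hcon
  set F : D → ℤ := ind {y | r x y} with hFdef
  have hF : Inv r F := sat_ind h (h.sat_class x)
  have hG : Inv r (F - fun y => F y⁻¹) := inv_sub hF (h.inv_inv hF)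
  have hT := sat_level h hG (fun v => v ≠ 0)
  have hx : F x ≠ 0 := by
    rw [hFdef, ind_of_mem (by exact h.equiv.refl x)]; norm_num
  have hxi : F x⁻¹ = 0 := ind_of_notMem hcon
  have h1 := h.of_subset hT hC (by
    intro y hy
    by_contra hyC
    apply hy
    simp only [Pi.sub_apply, hinv y hyC, sub_self]) x (by
      simp only [Pi.sub_apply, Set.mem_ofPred_eq, hxi, sub_zero]
      exact hx)
  apply hcon
  rw [h1, inv_one]
  exact h.equiv.refl 1

theorem inv_symm (h : PS r) (hC : C ≠ ⊤) (hinv : ∀ x, x ∉ C → x⁻¹ = x) {F : D → ℤ} (hF : Inv r F)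
    (x : D) : F x⁻¹ = F x := (hF _ _ (h.symm_of hC hinv x)).symm

theorem conv_comm (h : PS r) (hC : C ≠ ⊤) (hinv : ∀ x, x ∉ C → x⁻¹ = x) {F G : D → ℤ}
    (hF : Inv r F) (hG : Inv r G) : conv F G = conv G F := by
  funext x
  rw [← h.inv_symm hC hinv (h.mul _ _ hF hG) x]
  unfold conv
  rw [← Equiv.sum_comp (Equiv.mulLeft x) (fun z => G z * F (z⁻¹ * x))]
  refine Finset.sum_congr rfl (fun y _ => ?_)
  have h1 : G (y⁻¹ * x⁻¹) = G (x * y) := by
    rw [← h.inv_symm hC hinv hG (x * y), mul_inv_rev]
  have h2 : F ((x * y)⁻¹ * x) = F y := by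
    rw [← h.inv_symm hC hinv hF y]
    congr 1
    group
  simp only [Equiv.coe_mulLeft]
  rw [h1, h2, mul_comm]

/-- every nontrivial class meets `C` -/
theorem meets (h : PS r) (hC : C ≠ ⊤) (hinv : ∀ x, x ∉ C → x⁻¹ = x)
    (hidx : ∀ x y, x ∉ C → y ∉ C → x * y ∈ C) (hcard : 2 < Fintype.card D) (x : D) :
    ∃ y ∈ C, r x y := by
  classical
  by_contra hcon
  push Not at hcon
  set F : D → ℤ := ind {y | r x y} with hFdef
  have hF : Inv r F := sat_ind h (h.sat_class x)
  have hFC : ∀ y ∈ C, F y = 0 := fun y hy => ind_of_notMem (hcon y hy)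
  have hxC : x ∉ C := fun hx => hcon x hx (h.equiv.refl x)
  have hH : Inv r (conv F F) := h.mul _ _ hF hF
  have hT : Sat r {w | conv F F w ≠ 0 ∧ w ≠ 1} := by
    intro a b hab ⟨ha, ha1⟩
    refine ⟨by rw [← hH a b hab]; exact ha, ?_⟩
    rintro rfl
    exact ha1 (h.one' hab)
  have hTC : {w | conv F F w ≠ 0 ∧ w ≠ 1} ⊆ (C : Set D) := by
    rintro w ⟨hw, -⟩
    obtain ⟨y, -, hy⟩ := Finset.exists_ne_zero_of_sum_ne_zero hw
    have h1 : y ∉ C := fun hyC => left_ne_zero_of_mul hy (hFC y hyC)
    have h2 : y⁻¹ * w ∉ C := fun hyC => right_ne_zero_of_mul hy (hFC _ hyC)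
    have := hidx y _ h1 h2
    simpa using this
  have h1 := h.of_subset hT hC hTC
  have hsing : ∀ y, r x y → y = x := by
    intro y hy
    by_contra hne
    have hyC : y ∉ C := fun hyC => hcon y hyC hy
    have h2 : x * y ≠ 1 := by
      intro h2
      apply hne
      rw [← hinv x hxC]
      exact (inv_eq_of_mul_eq_one_right h2).symm
    have h3 : 0 < F x * F (x⁻¹ * (x * y)) := by
      rw [inv_mul_cancel_left, hFdef, ind_of_mem (by exact h.equiv.refl x), ind_of_mem (by exact hy)]
      norm_num
    have h4 : F x * F (x⁻¹ * (x * y)) ≤ conv F F (x * y) :=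
      Finset.single_le_sum (f := fun z => F z * F (z⁻¹ * (x * y)))
        (fun z _ => mul_nonneg (ind_nonneg _ _) (ind_nonneg _ _)) (mem_univ x)
    exact h2 (h1 _ ⟨(lt_of_lt_of_le h3 h4).ne', h2⟩)
  have hsat : Sat r ({x} : Set D) := by
    intro a b hab ha
    rw [Set.mem_singleton_iff] at ha ⊢
    subst ha
    exact hsing b hab
  rcases h.closure_cases hsat with h2 | h2
  · have := h2 x rfl
    apply hxC
    rw [this]
    exact one_mem _
  · have h3 : Nat.card (Subgroup.closure ({x} : Set D)) = Nat.card D := by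
      rw [h2]; exact Subgroup.card_top
    rw [← Subgroup.zpowers_eq_closure, Nat.card_zpowers] at h3
    have h4 : orderOf x ≤ 2 := by
      apply orderOf_le_of_pow_eq_one (by norm_num)
      rw [pow_two]
      nth_rewrite 1 [← hinv x hxC]
      exact inv_mul_cancel x
    rw [Nat.card_eq_fintype_card] at h3
    omega

end Index2

end PS

end Cfsg.Agent.H93.DB
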