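import Cfsg.Agent.H93.DB.Grp
import Cfsg.Agent.H93.DB.SRing

/-!
Schur rings over dihedral groups: matrices over the group ring of the rotations.
-/

set_option autoImplicit false
set_option linter.unusedSectionVars false
set_option linter.unusedVariables false

open Finset DihedralGroup

namespace Cfsg.Agent.H93.DB

variable {m : ℕ} [NeZero m]

/-- the rotations -/
def rot (m : ℕ) : Subgroup (DihedralGroup m) where
  carrier := {x | ∃ i, x = r i}
  one_mem' := ⟨0, rfl⟩
  mul_mem' := by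
    rintro _ _ ⟨i, rfl⟩ ⟨j, rfl⟩
    exact ⟨i + j, by simp⟩
  inv_mem' := by
    rintro _ ⟨i, rfl⟩
    exact ⟨-i, by simp⟩

theorem mem_rot {x : DihedralGroup m} : x ∈ rot m ↔ ∃ i, x = r i := Iff.rfl

theorem notMem_rot {x : DihedralGroup m} : x ∉ rot m ↔ ∃ i, x = sr i := by
  rw [mem_rot]
  constructor
  · intro h
    cases x with
    | r i => exact absurd ⟨i, rfl⟩ h
    | sr i => exact ⟨i, rfl⟩
  · rintro ⟨i, rfl⟩ ⟨j, hj⟩
    exact absurd hj (by simp)

theorem rot_ne_top : rot m ≠ ⊤ := by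
  intro h
  have : (sr 0 : DihedralGroup m) ∈ rot m := by rw [h]; trivial
  exact notMem_rot.mpr ⟨0, rfl⟩ this

theorem inv_of_notMem (x : DihedralGroup m) (hx : x ∉ rot m) : x⁻¹ = x := by
  obtain ⟨i, rfl⟩ := notMem_rot.mp hx
  rfl

theorem mul_mem_rot (x y : DihedralGroup m) (hx : x ∉ rot m) (hy : y ∉ rot m) : x * y ∈ rot m := by
  obtain ⟨i, rfl⟩ := notMem_rot.mp hx
  obtain ⟨j, rfl⟩ := notMem_rot.mp hy
  exact ⟨j - i, by simp⟩

/-- the dihedral group as a sum -/
def sumEquiv (m : ℕ) : ZMod m ⊕ ZMod m ≃ DihedralGroup m where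
  toFun := Sum.elim (fun i => r i) (fun i => sr i)
  invFun := fun x => match x with
    | r i => Sum.inl i
    | sr i => Sum.inr i
  left_inv := by rintro (i | i) <;> rfl
  right_inv := by rintro (i | i) <;> rfl

theorem sum_dih {M : Type*} [AddCommMonoid M] (f : DihedralGroup m → M) :
    ∑ x, f x = ∑ i, f (r i) + ∑ i, f (sr i) := by
  rw [← Equiv.sum_comp (sumEquiv m) f, Fintype.sum_sum_type]
  rfl

/-- first entry -/
noncomputable def aF (F : DihedralGroup m → ℤ) : Z m := toZ (fun i => F (r i))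

/-- second entry -/
noncomputable def bF (F : DihedralGroup m → ℤ) : Z m := toZ (fun i => F (sr (-i)))

@[simp] theorem coeff_aF (F : DihedralGroup m → ℤ) (i : ZMod m) : (aF F).coeff i = F (r i) := rfl
@[simp] theorem coeff_bF (F : DihedralGroup m → ℤ) (i : ZMod m) : (bF F).coeff i = F (sr (-i)) := rfl

/-- the matrix -/
noncomputable def Mx (F : DihedralGroup m → ℤ) : Matrix (Fin 2) (Fin 2) (Z m) :=
  !![aF F, bF F; st (bF F), st (aF F)]

theorem st_st (x : Z m) : st (st x) = x := by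
  apply Z_ext
  intro i
  rw [coeff_st, coeff_st, neg_neg]

theorem aF_conv (F G : DihedralGroup m → ℤ) : aF (conv F G) = aF F * aF G + bF F * st (bF G) := by
  apply Z_ext
  intro i
  rw [coeff_aF, AddMonoidAlgebra.coeff_add, Finsupp.add_apply, coeff_mulZ, coeff_mulZ, conv, sum_dih]
  congr 1
  · refine Finset.sum_congr rfl (fun j _ => ?_)
    rw [coeff_aF, coeff_aF]
    congr 2
    simp [sub_eq_neg_add]
  · rw [← Equiv.sum_comp (Equiv.neg (ZMod m))]
    refine Finset.sum_congr rfl (fun j _ => ?_)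
    simp only [Equiv.neg_apply, coeff_st, coeff_bF, neg_sub]
    congr 2
    simp [add_comm, sub_eq_add_neg]

theorem bF_conv (F G : DihedralGroup m → ℤ) : bF (conv F G) = aF F * bF G + bF F * st (aF G) := by
  apply Z_ext
  intro i
  rw [coeff_bF, AddMonoidAlgebra.coeff_add, Finsupp.add_apply, coeff_mulZ, coeff_mulZ, conv, sum_dih]
  congr 1
  · refine Finset.sum_congr rfl (fun j _ => ?_)
    rw [coeff_aF, coeff_bF]
    congr 2
    simp [sub_eq_add_neg, add_comm]
  · rw [← Equiv.sum_comp (Equiv.neg (ZMod m))]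
    refine Finset.sum_congr rfl (fun j _ => ?_)
    simp only [Equiv.neg_apply, coeff_st, coeff_bF, coeff_aF, neg_sub]
    congr 2
    simp [add_comm, sub_eq_add_neg]

theorem Mx_conv (F G : DihedralGroup m → ℤ) : Mx (conv F G) = Mx F * Mx G := by
  unfold Mx
  rw [aF_conv, bF_conv]
  ext i j : 2
  fin_cases i <;> fin_cases j <;>
    simp [Matrix.mul_apply, Fin.sum_univ_two, st_st, add_comm, mul_comm]

theorem Mx_dl : Mx (dl : DihedralGroup m → ℤ) = 1 := by
  have h1 : aF (dl : DihedralGroup m → ℤ) = 1 := by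
    apply Z_ext
    intro i
    rw [coeff_aF, AddMonoidAlgebra.one_def, AddMonoidAlgebra.coeff_single, Finsupp.single_apply]
    have h1 : (r i : DihedralGroup m) = 1 ↔ 0 = i := by
      rw [one_def, r.injEq, eq_comm]
    unfold dl
    simp only [h1]
  have h2 : bF (dl : DihedralGroup m → ℤ) = 0 := by
    apply Z_ext
    intro i
    rw [coeff_bF]
    have h1 : ¬ ((sr (-i) : DihedralGroup m) = 1) := by
      intro h
      rw [one_def] at h
      cases h
    unfold dl
    rw [if_neg h1]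
    rfl
  unfold Mx
  rw [h1, h2, map_one, map_zero]
  ext i j : 2
  fin_cases i <;> fin_cases j <;> simp

theorem Mx_injective : Function.Injective (Mx : (DihedralGroup m → ℤ) → _) := by
  intro F G h
  have h1 : aF F = aF G := by
    have := congrFun (congrFun h 0) 0
    simpa [Mx] using this
  have h2 : bF F = bF G := by
    have := congrFun (congrFun h 0) 1
    simpa [Mx] using this
  funext x
  cases x with
  | r i =>
    have := congrArg (fun z => z.coeff i) h1
    simpa using this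
  | sr i =>
    have := congrArg (fun z => z.coeff (-i)) h2
    simpa using this

/-- powers -/
def pw (F : DihedralGroup m → ℤ) (n : ℕ) : DihedralGroup m → ℤ := Nat.rec dl (fun _ f => conv f F) n

theorem pw_zero (F : DihedralGroup m → ℤ) : pw F 0 = dl := rfl
theorem pw_succ (F : DihedralGroup m → ℤ) (n : ℕ) : pw F (n + 1) = conv (pw F n) F := rfl

theorem Mx_pw (F : DihedralGroup m → ℤ) (n : ℕ) : Mx (pw F n) = Mx F ^ n := by
  induction n with
  | zero => rw [pw_zero, Mx_dl, pow_zero]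
  | succ n ih => rw [pw_succ, Mx_conv, ih, pow_succ]

theorem pw_pw (F : DihedralGroup m → ℤ) (a b : ℕ) : pw (pw F a) b = pw F (a * b) := by
  apply Mx_injective
  rw [Mx_pw, Mx_pw, Mx_pw, pow_mul]

theorem pw_one (F : DihedralGroup m → ℤ) : pw F 1 = F := by
  apply Mx_injective
  rw [Mx_pw, pow_one]

/-- the norm -/
noncomputable def nF (F : DihedralGroup m → ℤ) : Z m := aF F ^ 2 - bF F * st (bF F)

variable {rr : DihedralGroup m → DihedralGroup m → Prop}

namespace PS

theorem inv_pw (h : PS rr) {F : DihedralGroup m → ℤ} (hF : Inv rr F) (n : ℕ) : Inv rr (pw F n) := by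
  induction n with
  | zero => exact h.inv_dl
  | succ n ih => exact h.mul _ _ ih hF

theorem inv_sym (h : PS rr) {F : DihedralGroup m → ℤ} (hF : Inv rr F) (x : DihedralGroup m) :
    F x⁻¹ = F x := h.inv_symm rot_ne_top inv_of_notMem hF x

theorem comm (h : PS rr) {F G : DihedralGroup m → ℤ} (hF : Inv rr F) (hG : Inv rr G) :
    conv F G = conv G F := h.conv_comm rot_ne_top inv_of_notMem hF hG

theorem st_aF (h : PS rr) {F : DihedralGroup m → ℤ} (hF : Inv rr F) : st (aF F) = aF F := by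
  apply Z_ext
  intro i
  rw [coeff_st, coeff_aF, coeff_aF]
  exact h.inv_sym hF (r i)

theorem Mx_eq (h : PS rr) {F : DihedralGroup m → ℤ} (hF : Inv rr F) :
    Mx F = !![aF F, bF F; st (bF F), aF F] := by
  unfold Mx
  rw [h.st_aF hF]

theorem aF_pw (h : PS rr) {F : DihedralGroup m → ℤ} (hF : Inv rr F) {p : ℕ} (hp : p % 2 = 1) :
    aF (pw F p) = Gp p (aF F) (nF F) := by
  have h1 := mat_pow hp (aF F) (bF F) (st (bF F))
  rw [← h.Mx_eq hF, ← Mx_pw] at h1
  simpa [Mx, nF] using h1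

theorem det_Mx (h : PS rr) {F : DihedralGroup m → ℤ} (hF : Inv rr F) : (Mx F).det = nF F := by
  rw [h.Mx_eq hF, Matrix.det_fin_two_of, nF, pow_two]

theorem nF_pw (h : PS rr) {F : DihedralGroup m → ℤ} (hF : Inv rr F) (n : ℕ) :
    nF (pw F n) = nF F ^ n := by
  rw [← h.det_Mx (h.inv_pw hF n), Mx_pw, Matrix.det_pow, h.det_Mx hF]

/-- Frobenius -/
theorem frob (h : PS rr) {F : DihedralGroup m → ℤ} (hF : Inv rr F) {p : ℕ} (hp : p.Prime) (hp2 : p ≠ 2)
    (i : ZMod m) : (p : ℤ) ∣ pw F p (r i) - ∑ j ∈ univ.filter (fun j : ZMod m => p • j = i), F (r j) := by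
  have hodd : p % 2 = 1 := Nat.odd_iff.mp (hp.odd_of_ne_two hp2)
  have h1 := Gp_zero hp hp2 (aF F) (nF F)
  have h2 := frob_psi hp (aF F)
  have h3 : (p : Z m) ∣ aF (pw F p) - psi p (aF F) := by
    rw [h.aF_pw hF hodd]
    have := dvd_add h1 h2
    simpa using this
  rw [dvd_iff] at h3
  have h4 := h3 i
  rw [AddMonoidAlgebra.coeff_sub, Finsupp.sub_apply, coeff_psi] at h4
  exact h4

/-- tower congruence -/
theorem towerD (h : PS rr) {F : DihedralGroup m → ℤ} (hF : Inv rr F) {p : ℕ} (hp : p.Prime) (hp2 : p ≠ 2)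
    (k : ℕ) (i : ZMod m) : ((p : ℤ) ^ (k + 1)) ∣ pw F (p ^ (k + 1)) (r i) -
      ∑ j ∈ univ.filter (fun j : ZMod m => p • j = i), pw F (p ^ k) (r j) := by
  have hodd : p % 2 = 1 := Nat.odd_iff.mp (hp.odd_of_ne_two hp2)
  have h1 := (tower hp hp2 (fun k => aF (pw F (p ^ k))) (fun k => nF (pw F (p ^ k))) (by
    intro k
    show aF (pw F (p ^ (k + 1))) = _
    rw [pow_succ, ← pw_pw, h.aF_pw (h.inv_pw hF _) hodd]) (by
    intro k
    show nF (pw F (p ^ (k + 1))) = _
    rw [pow_succ, ← pw_pw, h.nF_pw (h.inv_pw hF _)]) k).1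
  rw [← Nat.cast_pow, dvd_iff] at h1
  have h4 := h1 i
  rw [AddMonoidAlgebra.coeff_sub, Finsupp.sub_apply, coeff_psi] at h4
  rw [← Nat.cast_pow]
  exact h4

theorem pw_conv (h : PS rr) {F G : DihedralGroup m → ℤ} (hF : Inv rr F) (hG : Inv rr G) (n : ℕ) :
    pw (conv F G) n = conv (pw F n) (pw G n) := by
  apply Mx_injective
  rw [Mx_pw, Mx_conv, Mx_conv, Mx_pw, Mx_pw]
  have hc : Commute (Mx F) (Mx G) := by
    show Mx F * Mx G = Mx G * Mx F
    rw [← Mx_conv, ← Mx_conv, h.comm hF hG]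
  exact hc.mul_pow n

end PS

end Cfsg.Agent.H93.DB
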