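import Cfsg.Agent.H93.DB.Bound

/-!
The 2-power case.
-/

set_option autoImplicit false
set_option linter.unusedSectionVars false
set_option linter.unusedVariables false

open Finset DihedralGroup

namespace Cfsg.Agent.H93.DB

variable {m : ℕ} [NeZero m]

theorem coeff_mul_single' (a : Z m) (z i : ZMod m) :
    (a * AddMonoidAlgebra.single z (1 : ℤ)).coeff i = a.coeff (i - z) := by
  rw [coeff_mulZ, Finset.sum_eq_single (i - z)]
  · rw [AddMonoidAlgebra.coeff_single, Finsupp.single_apply]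
    simp
  · intro j _ hj
    rw [AddMonoidAlgebra.coeff_single, Finsupp.single_apply, if_neg, mul_zero]
    intro h
    apply hj
    rw [h]
    ring
  · simp

/-- the value of `n` -/
theorem n_eq_four {F : DihedralGroup m → ℤ} (hsym : ∀ x, F x⁻¹ = F x) {n y : ℤ}
    (hF : ∀ w, conv F F w = n * dl w + y) {z₁ : ZMod m} (h4 : 4 • z₁ = 0) (h2 : 2 • z₁ ≠ 0) (hm4 : 4 ∣ m)
    (hF0 : F (r 0) = 0) (hF2 : F (r (2 • z₁)) = 0) (hF1 : F (r z₁) = 1) (hF3 : F (r (3 • z₁)) = 1)
    (hinv : ∀ i z : ZMod m, 4 • z = 0 → 4 • i ≠ 0 → F (r (i + z)) = F (r i)) : n = 4 := by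
  obtain ⟨E1, E2⟩ := dif_ids hsym hF
  set a := aF F with ha
  set b := bF F with hb
  set t : Z m := AddMonoidAlgebra.single z₁ (1 : ℤ) with ht
  set θ : Z m := 1 - t + t ^ 2 - t ^ 3 with hθ
  have htk : ∀ k : ℕ, t ^ k = AddMonoidAlgebra.single (k • z₁) (1 : ℤ) := by
    intro k
    rw [ht, AddMonoidAlgebra.single_pow, one_pow]
  have ht4 : t ^ 4 = 1 := by rw [htk, h4]; rfl
  have h31 : 3 • z₁ = -z₁ := by
    have : 4 • z₁ = 3 • z₁ + z₁ := by
      rw [← succ_nsmul]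
    rw [this] at h4
    exact eq_neg_of_add_eq_zero_left h4
  have hz0 : z₁ ≠ 0 := by rintro rfl; exact h2 (smul_zero _)
  have h3 : 3 • z₁ ≠ 0 := by rw [h31]; exact neg_ne_zero.mpr hz0
  have h12 : z₁ ≠ 2 • z₁ := by
    intro h
    apply hz0
    rw [two_nsmul] at h
    exact left_eq_add.mp h
  have h13 : z₁ ≠ 3 • z₁ := by
    intro h
    rw [h31] at h
    apply h2
    rw [two_nsmul]
    nth_rewrite 1 [h]
    exact neg_add_cancel z₁
  have h23 : 2 • z₁ ≠ 3 • z₁ := by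
    intro h
    apply hz0
    rw [succ_nsmul z₁ 2] at h
    exact left_eq_add.mp h
  -- the coefficients of `θ`
  have hθc : ∀ i, θ.coeff i = (if i = 0 then 1 else 0) - (if i = z₁ then 1 else 0) +
      (if i = 2 • z₁ then 1 else 0) - (if i = 3 • z₁ then 1 else 0) := by
    intro i
    rw [hθ, htk 2, htk 3, ht, AddMonoidAlgebra.one_def]
    simp only [AddMonoidAlgebra.coeff_add, AddMonoidAlgebra.coeff_sub, AddMonoidAlgebra.coeff_single,
      Finsupp.add_apply, Finsupp.sub_apply, Finsupp.single_apply, eq_comm]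
  have haθ : ∀ i, (a * θ).coeff i = F (r i) - F (r (i - z₁)) + F (r (i - 2 • z₁)) - F (r (i - 3 • z₁)) := by
    intro i
    have : a * θ = a - a * t + a * t ^ 2 - a * t ^ 3 := by rw [hθ]; ring
    rw [this, htk 2, htk 3, ht]
    simp only [AddMonoidAlgebra.coeff_add, AddMonoidAlgebra.coeff_sub, Finsupp.add_apply,
      Finsupp.sub_apply, coeff_mul_single']
    rfl
  -- the 4-torsion
  have htor : ∀ i : ZMod m, 4 • i = 0 → i = 0 ∨ i = z₁ ∨ i = 2 • z₁ ∨ i = 3 • z₁ := by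
    have h5 : ({0, z₁, 2 • z₁, 3 • z₁} : Finset (ZMod m)) = univ.filter (fun z : ZMod m => 4 • z = 0) := by
      apply Finset.eq_of_subset_of_card_le
      · intro i hi
        simp only [mem_insert, mem_singleton] at hi
        simp only [mem_filter, mem_univ, true_and]
        rcases hi with rfl | rfl | rfl | rfl
        · simp
        · exact h4
        · rw [smul_comm, h4, smul_zero]
        · rw [smul_comm, h4, smul_zero]
      · rw [card_tor hm4]
        rw [Finset.card_insert_of_notMem, Finset.card_insert_of_notMem, Finset.card_insert_of_notMem,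
          Finset.card_singleton]
        · rw [mem_singleton]; exact h23
        · rw [mem_insert, mem_singleton, not_or]; exact ⟨h12, h13⟩
        · rw [mem_insert, mem_insert, mem_singleton, not_or, not_or]
          exact ⟨hz0.symm, h2.symm, h3.symm⟩
    intro i hi
    have h6 : i ∈ univ.filter (fun z : ZMod m => 4 • z = 0) := by simpa using hi
    rw [← h5] at h6
    simpa using h6
  have e1 : 0 - z₁ = 3 • z₁ := by rw [zero_sub, h31]
  have e2 : 0 - 2 • z₁ = 2 • z₁ := by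
    rw [zero_sub, neg_eq_iff_add_eq_zero, ← add_nsmul]; exact h4
  have e3 : 0 - 3 • z₁ = z₁ := by rw [zero_sub, h31, neg_neg]
  have key : a * θ = -2 * θ := by
    apply Z_ext
    intro i
    rw [haθ]
    have hr : (-2 * θ).coeff i = -2 * θ.coeff i := by
      have h6 : (-2 : Z m) * θ = ((-2 : ℤ) : Z m) * θ := by push_cast; ring
      rw [h6, coeff_intCast_mul]
    rw [hr, hθc]
    by_cases hi : 4 • i = 0
    · have f1 : z₁ - z₁ = 0 := sub_self _
      have f2 : z₁ - 2 • z₁ = 3 • z₁ := by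
        rw [two_nsmul, h31]; abel
      have f3 : z₁ - 3 • z₁ = 2 • z₁ := by
        rw [h31, two_nsmul]; abel
      have g1 : 2 • z₁ - z₁ = z₁ := by rw [two_nsmul]; abel
      have g3 : 2 • z₁ - 3 • z₁ = 3 • z₁ := by
        rw [← e1, ← e2]
        have : 3 • z₁ = 2 • z₁ + z₁ := succ_nsmul z₁ 2
        rw [e2, e1, this]
        abel_nf
        rw [show (-1 : ℤ) • z₁ = -z₁ by simp, ← h31, ← natCast_zsmul]
        norm_num
      have k1 : 3 • z₁ - z₁ = 2 • z₁ := by
        rw [succ_nsmul z₁ 2]; abel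
      have k2 : 3 • z₁ - 2 • z₁ = z₁ := by
        rw [succ_nsmul z₁ 2]; abel
      rcases htor i hi with rfl | rfl | rfl | rfl
      · rw [e1, e2, e3, hF0, hF1, hF2, hF3, if_pos rfl, if_neg hz0.symm, if_neg h2.symm, if_neg h3.symm]
        norm_num
      · rw [f1, f2, f3, hF0, hF1, hF2, hF3, if_neg hz0, if_pos rfl, if_neg h12, if_neg h13]
        norm_num
      · rw [g1, g3, sub_self, hF0, hF1, hF2, hF3, if_neg h2, if_neg h12.symm, if_pos rfl, if_neg h23]
        norm_num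
      · rw [k1, k2, sub_self, hF0, hF1, hF2, hF3, if_neg h3, if_neg h13.symm, if_neg h23.symm, if_pos rfl]
        norm_num
    · have hs : ∀ z : ZMod m, 4 • z = 0 → F (r (i - z)) = F (r i) := by
        intro z hz
        rw [sub_eq_add_neg]
        exact hinv i (-z) (by rw [smul_neg, hz, neg_zero]) hi
      rw [hs z₁ h4, hs (2 • z₁) (by rw [smul_comm, h4, smul_zero]),
        hs (3 • z₁) (by rw [smul_comm, h4, smul_zero])]
      have n0 : i ≠ 0 := by rintro rfl; exact hi (smul_zero _)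
      have n1 : i ≠ z₁ := by rintro rfl; exact hi h4
      have n2 : i ≠ 2 • z₁ := by rintro rfl; exact hi (by rw [smul_comm, h4, smul_zero])
      have n3 : i ≠ 3 • z₁ := by rintro rfl; exact hi (by rw [smul_comm, h4, smul_zero])
      rw [if_neg n0, if_neg n1, if_neg n2, if_neg n3]
      norm_num
  have hCθ : CC m * θ = 0 := by
    have h5 : CC m * t = CC m := by
      apply Z_ext
      intro i
      rw [ht, coeff_mul_single']
      rfl
    rw [hθ]
    have h6 : CC m * t ^ 2 = CC m := by rw [pow_two, ← mul_assoc, h5, h5]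
    have h7 : CC m * t ^ 3 = CC m := by rw [pow_succ, ← mul_assoc, h6, h5]
    linear_combination -h5 + h6 - h7
  have hbθ : (4 : Z m) * (b * θ) = 0 := by
    linear_combination (-θ) * E2 - (y : Z m) * hCθ + 2 * b * key
  have hfin : (4 : Z m) * ((4 - (n : Z m)) * θ) = 0 := by
    linear_combination (4 * θ) * E1 - (4 * a - 8) * key - st b * hbθ + 4 * (y : Z m) * hCθ
  have h5 := congrArg (fun z => z.coeff 0) hfin
  have h6 : (4 : Z m) * ((4 - (n : Z m)) * θ) = ((4 * (4 - n) : ℤ) : Z m) * θ := by push_cast; ring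
  rw [h6] at h5
  simp only [coeff_intCast_mul] at h5
  rw [hθc, if_pos rfl, if_neg hz0.symm, if_neg h2.symm, if_neg h3.symm] at h5
  have h7 : (0 : Z m).coeff 0 = 0 := rfl
  rw [h7] at h5
  linarith

/-- the case of order 16 -/
theorem case_eight (f B : ZMod 8 → ℤ) (hB : ∀ i, B i = 0 ∨ B i = 1) (e y : ℤ) (h0 : f 0 = 0) (h4 : f 4 = 0)
    (h2 : f 2 = 1) (h6 : f 6 = 1) (h1 : f 1 = e) (h3 : f 3 = e) (h5 : f 5 = e) (h7 : f 7 = e)
    (he : e = 0 ∨ e = 1) (k4 : ∑ j, f j * f (4 - j) + ∑ j, B j * B (4 + j) = y)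
    (k1 : ∑ j, f j * f (1 - j) + ∑ j, B j * B (1 + j) = y) (hk : ∑ j, f j + ∑ j, B j = 4 + y) : False := by
  have s8 : ∀ g : ZMod 8 → ℤ, ∑ j, g j = g 0 + g 1 + g 2 + g 3 + g 4 + g 5 + g 6 + g 7 := by
    intro g
    exact Fin.sum_univ_eight g
  rw [s8, s8] at k4 k1 hk
  have a1 : (4 - 0 : ZMod 8) = 4 := by decide
  have a2 : (4 - 1 : ZMod 8) = 3 := by decide
  have a3 : (4 - 2 : ZMod 8) = 2 := by decide
  have a4 : (4 - 3 : ZMod 8) = 1 := by decide
  have a5 : (4 - 4 : ZMod 8) = 0 := by decide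
  have a6 : (4 - 5 : ZMod 8) = 7 := by decide
  have a7 : (4 - 6 : ZMod 8) = 6 := by decide
  have a8 : (4 - 7 : ZMod 8) = 5 := by decide
  have b1 : (4 + 0 : ZMod 8) = 4 := by decide
  have b2 : (4 + 1 : ZMod 8) = 5 := by decide
  have b3 : (4 + 2 : ZMod 8) = 6 := by decide
  have b4 : (4 + 3 : ZMod 8) = 7 := by decide
  have b5 : (4 + 4 : ZMod 8) = 0 := by decide
  have b6 : (4 + 5 : ZMod 8) = 1 := by decide
  have b7 : (4 + 6 : ZMod 8) = 2 := by decide
  have b8 : (4 + 7 : ZMod 8) = 3 := by decide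
  have c1 : (1 - 0 : ZMod 8) = 1 := by decide
  have c2 : (1 - 1 : ZMod 8) = 0 := by decide
  have c3 : (1 - 2 : ZMod 8) = 7 := by decide
  have c4 : (1 - 3 : ZMod 8) = 6 := by decide
  have c5 : (1 - 4 : ZMod 8) = 5 := by decide
  have c6 : (1 - 5 : ZMod 8) = 4 := by decide
  have c7 : (1 - 6 : ZMod 8) = 3 := by decide
  have c8 : (1 - 7 : ZMod 8) = 2 := by decide
  have d1 : (1 + 0 : ZMod 8) = 1 := by decide
  have d2 : (1 + 1 : ZMod 8) = 2 := by decide
  have d3 : (1 + 2 : ZMod 8) = 3 := by decide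
  have d4 : (1 + 3 : ZMod 8) = 4 := by decide
  have d5 : (1 + 4 : ZMod 8) = 5 := by decide
  have d6 : (1 + 5 : ZMod 8) = 6 := by decide
  have d7 : (1 + 6 : ZMod 8) = 7 := by decide
  have d8 : (1 + 7 : ZMod 8) = 0 := by decide
  rw [a1, a2, a3, a4, a5, a6, a7, a8, b1, b2, b3, b4, b5, b6, b7, b8] at k4
  rw [c1, c2, c3, c4, c5, c6, c7, c8, d1, d2, d3, d4, d5, d6, d7, d8] at k1
  rw [h0, h1, h2, h3, h4, h5, h6, h7] at k4 k1 hk
  have hq : ∀ u v : ℤ, (u = 0 ∨ u = 1) → (v = 0 ∨ v = 1) → 0 ≤ 2 * (u * v) - u - v + 1 := by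
    rintro u v (rfl | rfl) (rfl | rfl) <;> norm_num
  have q0 := hq _ _ (hB 0) (hB 4)
  have q1 := hq _ _ (hB 1) (hB 5)
  have q2 := hq _ _ (hB 2) (hB 6)
  have q3 := hq _ _ (hB 3) (hB 7)
  have hee : e * e = e := by rcases he with rfl | rfl <;> norm_num
  have hsum : (2 * (B 0 * B 4) - B 0 - B 4 + 1) + (2 * (B 1 * B 5) - B 1 - B 5 + 1) +
      (2 * (B 2 * B 6) - B 2 - B 6 + 1) + (2 * (B 3 * B 7) - B 3 - B 7 + 1) = 0 := by
    linear_combination k4 - hk - 4 * hee
  have z0 : 2 * (B 0 * B 4) - B 0 - B 4 + 1 = 0 := by linarith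
  have z1 : 2 * (B 1 * B 5) - B 1 - B 5 + 1 = 0 := by linarith
  have z2 : 2 * (B 2 * B 6) - B 2 - B 6 + 1 = 0 := by linarith
  have z3 : 2 * (B 3 * B 7) - B 3 - B 7 + 1 = 0 := by linarith
  have hz : ∀ u v : ℤ, (u = 0 ∨ u = 1) → (v = 0 ∨ v = 1) → 2 * (u * v) - u - v + 1 = 0 → v = 1 - u := by
    rintro u v (rfl | rfl) (rfl | rfl) h <;> simp_all
  have w0 := hz _ _ (hB 0) (hB 4) z0
  have w1 := hz _ _ (hB 1) (hB 5) z1
  have w2 := hz _ _ (hB 2) (hB 6) z2
  have w3 := hz _ _ (hB 3) (hB 7) z3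
  rw [w0, w1, w2, w3] at k1 hk
  rcases he with rfl | rfl <;> rcases hB 0 with x0 | x0 <;> rcases hB 1 with x1 | x1 <;>
    rcases hB 2 with x2 | x2 <;> rcases hB 3 with x3 | x3 <;> rw [x0, x1, x2, x3] at k1 hk <;>
    norm_num at k1 hk <;> omega

end Cfsg.Agent.H93.DB
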