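import Cfsg.Agent.H93.DB.Alg

/-!
The group ring of `ZMod m` over `ℤ`.
-/

set_option autoImplicit false

open Finset

namespace Cfsg.Agent.H93.DB

variable {m : ℕ} [NeZero m]

/-- group ring -/
abbrev Z (m : ℕ) : Type := AddMonoidAlgebra ℤ (ZMod m)

/-- element from a function -/
noncomputable def toZ (a : ZMod m → ℤ) : Z m := ⟨Finsupp.equivFunOnFinite.symm a⟩

@[simp] theorem coeff_toZ (a : ZMod m → ℤ) (i : ZMod m) : (toZ a).coeff i = a i := rfl

omit [NeZero m] in
theorem Z_ext {x y : Z m} (h : ∀ i, x.coeff i = y.coeff i) : x = y := by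
  apply AddMonoidAlgebra.coeff_injective
  ext i
  exact h i

theorem coeff_mulZ (x y : Z m) (i : ZMod m) : (x * y).coeff i = ∑ j, x.coeff j * y.coeff (i - j) := by
  rw [AddMonoidAlgebra.coeff_mul_apply_left, Finsupp.sum_fintype _ _ (by intro i; rw [zero_mul])]
  refine Finset.sum_congr rfl (fun j _ => ?_)
  rw [neg_add_eq_sub]

omit [NeZero m] in
theorem coeff_natCast_mul (n : ℕ) (x : Z m) (i : ZMod m) : ((n : Z m) * x).coeff i = n * x.coeff i := by
  rw [← nsmul_eq_mul]
  rw [AddMonoidAlgebra.coeff_smul]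
  simp

theorem dvd_iff (n : ℕ) (x : Z m) : (n : Z m) ∣ x ↔ ∀ i, (n : ℤ) ∣ x.coeff i := by
  constructor
  · rintro ⟨y, rfl⟩ i
    rw [coeff_natCast_mul]
    exact dvd_mul_right _ _
  · intro h
    choose y hy using h
    refine ⟨toZ y, Z_ext (fun i => ?_)⟩
    rw [coeff_natCast_mul, coeff_toZ]
    exact hy i

/-- the map induced by an endomorphism of `ZMod m`. -/
noncomputable def mp (φ : ZMod m →+ ZMod m) : Z m →+* Z m := AddMonoidAlgebra.mapDomainRingHom ℤ φ

theorem coeff_mp (φ : ZMod m →+ ZMod m) (x : Z m) (i : ZMod m) :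
    (mp φ x).coeff i = ∑ j ∈ univ.filter (fun j => φ j = i), x.coeff j := by
  classical
  have h1 : (mp φ x) = AddMonoidAlgebra.mapDomain φ x := rfl
  rw [h1]
  have h2 : (AddMonoidAlgebra.mapDomain φ x).coeff = Finsupp.mapDomain φ x.coeff := rfl
  rw [h2, Finsupp.mapDomain, Finsupp.sum_fintype _ _ (by intro i; simp), Finsupp.finsetSum_apply, Finset.sum_filter]
  refine Finset.sum_congr rfl (fun j _ => ?_)
  rw [Finsupp.single_apply]

/-- involution -/
noncomputable def st : Z m →+* Z m := mp (negAddMonoidHom)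

theorem coeff_st (x : Z m) (i : ZMod m) : (st x).coeff i = x.coeff (-i) := by
  rw [st, coeff_mp]
  have : (univ.filter (fun j : ZMod m => (negAddMonoidHom : ZMod m →+ ZMod m) j = i)) = {-i} := by
    ext j
    simp only [mem_filter, mem_univ, true_and, mem_singleton]
    constructor
    · intro h
      rw [← h]; simp
    · rintro rfl; simp
  rw [this, sum_singleton]

/-- the `k`-th Adams operation -/
noncomputable def psi (k : ℕ) : Z m →+* Z m := mp (nsmulAddMonoidHom k)

theorem coeff_psi (k : ℕ) (x : Z m) (i : ZMod m) :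
    (psi k x).coeff i = ∑ j ∈ univ.filter (fun j => k • j = i), x.coeff j := by
  rw [psi, coeff_mp]
  rfl

/-- reduction modulo `p` -/
theorem frob_psi {p : ℕ} (hp : p.Prime) (x : Z m) : (p : Z m) ∣ x ^ p - psi p x := by
  have hpf := Fact.mk hp
  induction x using AddMonoidAlgebra.induction_linear with
  | zero => rw [map_zero, zero_pow hp.ne_zero, sub_zero]; exact dvd_zero _
  | add x y hx hy =>
    obtain ⟨r, hr⟩ := exists_add_pow_prime_eq hp x y
    rw [hr, map_add]
    have : x ^ p + y ^ p + (p : Z m) * x * y * r - (psi p x + psi p y) =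
        (x ^ p - psi p x) + (y ^ p - psi p y) + (p : Z m) * (x * y * r) := by ring
    rw [this]
    exact dvd_add (dvd_add hx hy) (dvd_mul_right _ _)
  | single j c =>
    have h1 : psi p (AddMonoidAlgebra.single j c) = AddMonoidAlgebra.single (p • j) c := by
      simp [psi, mp]
    rw [h1, AddMonoidAlgebra.single_pow, ← AddMonoidAlgebra.single_sub, dvd_iff]
    intro i
    rw [AddMonoidAlgebra.coeff_single, Finsupp.single_apply]
    split_ifs
    · rw [← ZMod.intCast_zmod_eq_zero_iff_dvd]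
      push_cast
      rw [ZMod.pow_card, sub_self]
    · exact dvd_zero _

theorem st_psi (k : ℕ) (x : Z m) : st (psi k x) = psi k (st x) := by
  apply Z_ext
  intro i
  rw [coeff_st, coeff_psi, coeff_psi]
  refine Finset.sum_nbij' (fun j => -j) (fun j => -j) ?_ ?_ ?_ ?_ ?_
  · intro j hj
    simp only [mem_filter, mem_univ, true_and] at hj ⊢
    rw [smul_neg, hj, neg_neg]
  · intro j hj
    simp only [mem_filter, mem_univ, true_and] at hj ⊢
    rw [smul_neg, hj]
  · intro j _; simp
  · intro j _; simp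
  · intro j _; rw [coeff_st, neg_neg]

/-- The tower congruence: if `(a_k, n_k)` satisfies the recursion of `p`-th powers, then
`a_{k+1} ≡ ψ a_k` modulo `p ^ (k + 1)`. -/
theorem tower {p : ℕ} (hp : p.Prime) (hp2 : p ≠ 2) (a n : ℕ → Z m)
    (ha : ∀ k, a (k + 1) = Gp p (a k) (n k)) (hn : ∀ k, n (k + 1) = (n k) ^ p) (k : ℕ) :
    ((p : Z m) ^ (k + 1)) ∣ a (k + 1) - psi p (a k) ∧ ((p : Z m) ^ (k + 1)) ∣ n (k + 1) - psi p (n k) := by
  induction k with
  | zero =>
    simp only [zero_add, pow_one]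
    refine ⟨?_, ?_⟩
    · have h1 := Gp_zero hp hp2 (a 0) (n 0)
      have h2 := frob_psi hp (a 0)
      rw [show a 1 - psi p (a 0) = (Gp p (a 0) (n 0) - a 0 ^ p) + (a 0 ^ p - psi p (a 0)) by
        rw [show a 1 = _ from ha 0]; ring]
      exact dvd_add h1 h2
    · rw [show n 1 = _ from hn 0]
      exact frob_psi hp (n 0)
  | succ k ih =>
    refine ⟨?_, ?_⟩
    · rw [ha (k + 1)]
      have h1 : psi p (a (k + 1)) = Gp p (psi p (a k)) (psi p (n k)) := by
        rw [ha k, map_Gp]
      rw [h1]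
      exact Gp_congr hp hp2 (by omega) ih.1 ih.2
    · rw [hn (k + 1)]
      have h1 : psi p (n (k + 1)) = (psi p (n k)) ^ p := by
        rw [hn k, map_pow]
      rw [h1]
      exact pow_congr (by omega) ih.2

end Cfsg.Agent.H93.DB
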