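import Cfsg.Agent.H93.DB.Eight

/-!
A primitive Schur ring over a dihedral group is trivial.
-/

set_option autoImplicit false
set_option linter.unusedSectionVars false
set_option linter.unusedVariables false

open Finset DihedralGroup

namespace Cfsg.Agent.H93.DB

variable {m : ℕ} [NeZero m] {rr : DihedralGroup m → DihedralGroup m → Prop}

theorem r_ne_one {i : ZMod m} (hi : i ≠ 0) : (r i : DihedralGroup m) ≠ 1 := by
  rw [one_def]
  intro h'
  exact hi (by injection h')

theorem ind_01 (T : Set (DihedralGroup m)) (x : DihedralGroup m) : PS.ind T x = 0 ∨ PS.ind T x = 1 := by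
  by_cases hx : x ∈ T
  · exact Or.inr (PS.ind_of_mem hx)
  · exact Or.inl (PS.ind_of_notMem hx)

namespace PS

/-- sizes of the two parts of a class -/
theorem sizes (h : PS rr) (hm : 2 ≤ m) {z₀ : ZMod m} (hz₀ : z₀ ≠ 0) {x : DihedralGroup m} (hx : x ≠ 1)
    (hxz : ¬ rr x (r z₀)) :
    0 < ∑ i, ind {y | rr x y} (r i) ∧ ∑ i, ind {y | rr x y} (r i) < m ∧
      2 ≤ ∑ i, ind {y | rr x y} (r i) + ∑ i, ind {y | rr x y} (sr i) ∧
      ∑ i, ind {y | rr x y} (r i) + ∑ i, ind {y | rr x y} (sr i) ≤ 2 * m - 2 := by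
  set F : DihedralGroup m → ℤ := ind {y | rr x y} with hF
  have hnn : ∀ w, 0 ≤ F w := fun w => ind_nonneg _ _
  have hle : ∀ w, F w ≤ 1 := fun w => ind_le _ _
  have hF0 : F (r 0) = 0 := ind_zero (fun hcon => hx (h.one' hcon))
  have hFz : F (r z₀) = 0 := ind_zero hxz
  have hα : 0 < ∑ i, F (r i) := by
    obtain ⟨i, hi⟩ := h.meets' hm x
    have h1 := Finset.single_le_sum (f := fun i => F (r i)) (fun i _ => hnn _) (mem_univ i)
    have h2 : F (r i) = 1 := ind_one hi
    simp only [h2] at h1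
    omega
  have hβ : 0 < ∑ i, F (sr i) := by
    by_contra hcon
    have h0 : ∀ i, F (sr i) = 0 := by
      intro i
      have h1 := Finset.single_le_sum (f := fun i => F (sr i)) (fun i _ => hnn _) (mem_univ i)
      have h2 := hnn (sr i)
      omega
    have hsub : {y | rr x y} ⊆ (rot m : Set (DihedralGroup m)) := by
      intro y hy
      by_contra hyr
      obtain ⟨i, rfl⟩ := notMem_rot.mp hyr
      have h3 := h0 i
      rw [hF, ind_one hy] at h3
      exact one_ne_zero h3
    exact hx (h.of_subset (h.sat_class x) rot_ne_top hsub x (h.equiv.refl x))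
  have hαle : ∑ i, F (r i) ≤ m - 2 := by
    rw [← Finset.add_sum_erase univ _ (mem_univ (0 : ZMod m)),
      ← Finset.add_sum_erase (univ.erase 0) _ (mem_erase.mpr ⟨hz₀, mem_univ z₀⟩), hF0, hFz, zero_add, zero_add]
    calc ∑ i ∈ (univ.erase (0 : ZMod m)).erase z₀, F (r i) ≤ ∑ _i ∈ (univ.erase (0 : ZMod m)).erase z₀, (1 : ℤ) :=
          Finset.sum_le_sum (fun i _ => hle _)
      _ = m - 2 := by
        rw [sum_const, nsmul_eq_mul, mul_one, card_erase_of_mem (mem_erase.mpr ⟨hz₀, mem_univ z₀⟩),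
          card_erase_of_mem (mem_univ _), card_univ, ZMod.card]
        omega
  have hβle : ∑ i, F (sr i) ≤ m := by
    calc ∑ i, F (sr i) ≤ ∑ _i : ZMod m, (1 : ℤ) := Finset.sum_le_sum (fun i _ => hle _)
      _ = m := by simp
  refine ⟨hα, by linarith, by linarith, by linarith⟩

/-- The bound argument. -/
theorem no_class (h : PS rr) (hm : 2 ≤ m) {z₀ : ZMod m} (hz₀ : z₀ ≠ 0) {x : DihedralGroup m} (hx : x ≠ 1)
    (hxz : ¬ rr x (r z₀)) {n y : ℤ}
    (hny : ∀ w, conv (ind {y | rr x y}) (ind {y | rr x y}) w = n * dl w + y) {q : ℕ} (hq : q ∣ m) (hq3 : 3 ≤ q)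
    (hQ : ∀ i z : ZMod m, q • z = 0 → ind {y | rr x y} (r (i + z)) = ind {y | rr x y} (r i)) : False := by
  obtain ⟨hα0, hαm, hk1, hk2⟩ := h.sizes hm hz₀ hx hxz
  have h01 : ∀ w, ind {y | rr x y} w = 0 ∨ ind {y | rr x y} w = 1 := ind_01 _
  have hsym : ∀ w, ind {y | rr x y} w⁻¹ = ind {y | rr x y} w :=
    fun w => h.inv_sym (sat_ind h (h.sat_class x)) w
  obtain ⟨R1, R2, R3⟩ := rels h01 hsym hny
  have hb := bound h01 hsym hny hq hQ hα0 hαm
  refine num_one (m := (m : ℤ)) (q := (q : ℤ)) (α := ∑ i, ind {y | rr x y} (r i))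
    (β := ∑ i, ind {y | rr x y} (sr i)) (n := n) (by exact_mod_cast hq3) (by exact_mod_cast hm) ?_ ?_ hb hk1 hk2
  · linear_combination R2 - R1
  · linear_combination (-(m : ℤ)) * R3 - R2

theorem order_eq_of_tor {p : ℕ} (hp : p.Prime) {z : ZMod m} (hz : z ≠ 0) (hpz : p • z = 0) : addOrderOf z = p := by
  rcases (Nat.dvd_prime hp).mp (addOrderOf_dvd_of_nsmul_eq_zero hpz) with h1 | h1
  · rw [AddMonoid.addOrderOf_eq_one_iff] at h1
    exact absurd h1 hz
  · exact h1

theorem exists_tor {p : ℕ} (hp : p.Prime) (hpm : p ∣ m) : ∃ z : ZMod m, z ≠ 0 ∧ p • z = 0 := by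
  by_contra hcon
  push Not at hcon
  have h1 := card_tor (m := m) hpm
  have h2 : univ.filter (fun z : ZMod m => p • z = 0) = {0} := by
    ext z
    simp only [mem_filter, mem_univ, true_and, mem_singleton]
    constructor
    · intro hz
      by_contra hz0
      exact hcon z hz0 hz
    · rintro rfl; simp
  rw [h2, card_singleton] at h1
  exact hp.one_lt.ne h1

theorem trivial_odd (h : PS rr) (hm : 2 ≤ m) (hrat : Rat rr) {p : ℕ} (hp : p.Prime) (hp2 : p ≠ 2) (hpm : p ∣ m) :
    ∀ x y : DihedralGroup m, x ≠ 1 → y ≠ 1 → rr x y := by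
  obtain ⟨z₀, hz₀, hpz₀⟩ := exists_tor hp hpm
  have hE1 : ∀ i z : ZMod m, p • z = 0 → p • i ≠ 0 → rr (r i) (r (i + z)) :=
    fun i z hz hi => h.rel_add_tor hm hrat hp hp2 hpm hz hi
  have hE2 : ∀ z z' : ZMod m, z ≠ 0 → z' ≠ 0 → p • z = 0 → p • z' = 0 → rr (r z) (r z') :=
    fun z z' hz hz' hpz hpz' => hrat.rel (by rw [order_eq_of_tor hp hz hpz, order_eq_of_tor hp hz' hpz'])
  have key : ∀ x : DihedralGroup m, x ≠ 1 → rr x (r z₀) := by
    intro x hx
    by_contra hxz
    obtain ⟨n, y, hny⟩ := h.diff_set hE1 hE2 hz₀ hpz₀ hx hxz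
    refine h.no_class hm hz₀ hx hxz hny hpm ?_ (fun i z hz => h.ind_tor hE1 hE2 hz₀ hpz₀ hx hxz hz)
    have := hp.two_le
    omega
  intro x y hx hy
  exact h.equiv.trans (key x hx) (h.equiv.symm (key y hy))

theorem trivial_two (h : PS rr) (hm : 2 ≤ m) (hrat : Rat rr) {a : ℕ} (hma : m = 2 ^ a) :
    ∀ x y : DihedralGroup m, x ≠ 1 → y ≠ 1 → rr x y := by
  have hp : Nat.Prime 2 := Nat.prime_two
  have hpm : 2 ∣ m := by
    rw [hma]
    apply dvd_pow_self
    rintro rfl
    rw [pow_zero] at hma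
    omega
  -- every nonzero element has even order
  have heven : ∀ i : ZMod m, i ≠ 0 → 2 ∣ addOrderOf i := by
    intro i hi
    have h1 : addOrderOf i ∣ 2 ^ a := by
      rw [← hma]
      have := addOrderOf_dvd_natCard i
      rwa [Nat.card_zmod] at this
    obtain ⟨b, -, hb⟩ := (Nat.dvd_prime_pow hp).mp h1
    rw [hb]
    apply dvd_pow_self
    rintro rfl
    rw [pow_zero, AddMonoid.addOrderOf_eq_one_iff] at hb
    exact hi hb
  have hdouble : ∀ i : ZMod m, 2 • i ≠ 0 → addOrderOf i = 2 * addOrderOf (2 • i) := fun i hi =>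
    order_root hp rfl (heven _ hi)
  obtain ⟨z₀, hz₀, hpz₀⟩ := exists_tor hp hpm
  have hE1 : ∀ i z : ZMod m, 2 • z = 0 → 2 • i ≠ 0 → rr (r i) (r (i + z)) := by
    intro i z hz hi
    refine hrat.rel ?_
    have h1 : 2 • (i + z) = 2 • i := by rw [smul_add, hz, add_zero]
    rw [hdouble i hi, hdouble (i + z) (by rw [h1]; exact hi), h1]
  have hE2 : ∀ z z' : ZMod m, z ≠ 0 → z' ≠ 0 → 2 • z = 0 → 2 • z' = 0 → rr (r z) (r z') :=
    fun z z' hz hz' hpz hpz' => hrat.rel (by rw [order_eq_of_tor hp hz hpz, order_eq_of_tor hp hz' hpz'])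
  have h22 : ∀ i : ZMod m, 4 • i = 2 • 2 • i := by
    intro i
    rw [show (4 : ℕ) = 2 * 2 from rfl, mul_smul]
  have hE4 : ∀ i z : ZMod m, 4 • z = 0 → 4 • i ≠ 0 → rr (r i) (r (i + z)) := by
    intro i z hz hi
    refine hrat.rel ?_
    have h1 : 4 • (i + z) = 4 • i := by rw [smul_add, hz, add_zero]
    have h2 : ∀ j : ZMod m, 4 • j ≠ 0 → addOrderOf j = 4 * addOrderOf (4 • j) := by
      intro j hj
      have h3 : 2 • j ≠ 0 := by
        intro h4
        apply hj
        rw [h22, h4, smul_zero]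
      rw [hdouble j h3, hdouble (2 • j) (by rw [← h22]; exact hj), ← h22]
      ring
    rw [h2 i hi, h2 (i + z) (by rw [h1]; exact hi), h1]
  have key : ∀ x : DihedralGroup m, x ≠ 1 → rr x (r z₀) := by
    intro x hx
    by_contra hxz
    obtain ⟨n, y, hny⟩ := h.diff_set hE1 hE2 hz₀ hpz₀ hx hxz
    set F : DihedralGroup m → ℤ := ind {y | rr x y} with hFd
    have hFI : Inv rr F := sat_ind h (h.sat_class x)
    have htor2 : ∀ i : ZMod m, 2 • i = 0 → F (r i) = 0 := by
      intro i hi
      apply ind_zero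
      intro hcon
      by_cases hi0 : i = 0
      · subst hi0
        exact hx (h.one' hcon)
      · exact hxz (h.equiv.trans hcon (hE2 i z₀ hi0 hz₀ hi hpz₀))
    have hF4 : ∀ i z : ZMod m, 4 • z = 0 → 4 • i ≠ 0 → F (r (i + z)) = F (r i) :=
      fun i z hz hi => (hFI _ _ (hE4 i z hz hi)).symm
    -- `4 ∣ m`
    obtain ⟨i₀, hi₀⟩ := h.meets' hm x
    have hFi₀ : F (r i₀) = 1 := ind_one hi₀
    have h2i₀ : 2 • i₀ ≠ 0 := by
      intro hcon
      rw [htor2 i₀ hcon] at hFi₀
      exact zero_ne_one hFi₀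
    have h4m : 4 ∣ m := by
      have h1 := hdouble i₀ h2i₀
      have h2 := heven _ h2i₀
      have h3 : addOrderOf i₀ ∣ m := by
        have := addOrderOf_dvd_natCard i₀
        rwa [Nat.card_zmod] at this
      obtain ⟨c, hc⟩ := h2
      rw [h1, hc] at h3
      exact (show 4 ∣ 2 * (2 * c) from ⟨c, by ring⟩).trans h3
    by_cases hex : ∃ z₁ : ZMod m, 4 • z₁ = 0 ∧ F (r z₁) = 1
    · obtain ⟨z₁, h4, hF1⟩ := hex
      have h2 : 2 • z₁ ≠ 0 := by
        intro hcon
        rw [htor2 z₁ hcon] at hF1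
        exact zero_ne_one hF1
      have hsym : ∀ w, F w⁻¹ = F w := fun w => h.inv_sym hFI w
      have h31 : 3 • z₁ = -z₁ := by
        have h5 : 4 • z₁ = 3 • z₁ + z₁ := by rw [← succ_nsmul]
        rw [h5] at h4
        exact eq_neg_of_add_eq_zero_left h4
      have hF3 : F (r (3 • z₁)) = 1 := by
        rw [h31, ← hF1, ← hsym (r z₁)]
        rfl
      have hn4 : n = 4 := n_eq_four hsym hny h4 h2 h4m (htor2 0 (smul_zero _))
        (htor2 (2 • z₁) (by rw [← h22]; exact h4)) hF1 hF3 hF4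
      subst hn4
      have h01 : ∀ w, F w = 0 ∨ F w = 1 := ind_01 _
      obtain ⟨R1, R2, R3⟩ := rels h01 hsym hny
      -- the order is 8
      have hR : (∑ i, F (r i) + ∑ i, F (sr i)) ^ 2 - 2 * (m : ℤ) * (∑ i, F (r i) + ∑ i, F (sr i)) +
          (2 * m - 1) * 4 = 0 := by
        linear_combination R1 + R2 + 2 * (m : ℤ) * R3
      have hm8 : m = 8 := by
        have hlt : m < 11 := by
          by_contra hcon
          exact num_two (m := (m : ℤ)) (by exact_mod_cast Nat.le_of_not_lt hcon) hR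
        have hne : m ≠ 4 := by
          rintro rfl
          push_cast at hR
          nlinarith [sq_nonneg (∑ i, F (r i) + ∑ i, F (sr i) - 4)]
        have ha : a < 4 := by
          by_contra hcon
          have : 2 ^ 4 ≤ 2 ^ a := Nat.pow_le_pow_right (by norm_num) (by omega)
          omega
        interval_cases a <;> omega
      clear hR
      clear hma
      subst hm8
      -- the odd elements
      have hodd : ∀ i j : ZMod 8, i = 1 ∨ i = 3 ∨ i = 5 ∨ i = 7 → j = 1 ∨ j = 3 ∨ j = 5 ∨ j = 7 →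
          F (r i) = F (r j) := by
        have h8 : ∀ i : ZMod 8, i = 1 ∨ i = 3 ∨ i = 5 ∨ i = 7 → rr (r 1) (r i) := by
          rintro i (rfl | rfl | rfl | rfl)
          · exact h.equiv.refl _
          · have := hrat 1 3 (by decide)
            exact this
          · have := hrat 1 5 (by decide)
            exact this
          · have := hrat 1 7 (by decide)
            exact this
        intro i j hi hj
        rw [← hFI _ _ (h8 i hi), ← hFI _ _ (h8 j hj)]
      have hz1 : z₁ = 2 ∨ z₁ = 6 := by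
        revert h4 h2
        clear * -
        revert z₁
        decide
      have hF26 : F (r 2) = 1 ∧ F (r 6) = 1 := by
        have hinv2 : F (r 6) = F (r 2) := by
          rw [← hsym (r 2)]
          rfl
        rcases hz1 with rfl | rfl
        · exact ⟨hF1, by rw [hinv2]; exact hF1⟩
        · exact ⟨by rw [← hinv2]; exact hF1, hF1⟩
      have hk4 := hny (r 4)
      have hk1 := hny (r 1)
      rw [conv_r] at hk4 hk1
      have hd4 : dl (r 4 : DihedralGroup 8) = 0 := by
        unfold dl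
        rw [if_neg (r_ne_one (by decide))]
      have hd1 : dl (r 1 : DihedralGroup 8) = 0 := by
        unfold dl
        rw [if_neg (r_ne_one (by decide))]
      rw [hd4] at hk4
      rw [hd1] at hk1
      refine case_eight (fun i => F (r i)) (fun i => F (sr i)) (fun i => h01 _) (F (r 1)) y
        (htor2 0 (by decide)) (htor2 4 (by decide)) hF26.1 hF26.2 rfl (hodd 3 1 (by decide) (by decide))
        (hodd 5 1 (by decide) (by decide)) (hodd 7 1 (by decide) (by decide)) (h01 _) ?_ ?_ ?_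
      · simpa using hk4
      · simpa using hk1
      · exact R3.symm
    · have hno : ∀ i : ZMod m, 4 • i = 0 → F (r i) = 0 := by
        intro i hi
        rcases ind_01 {y | rr x y} (r i) with h1 | h1
        · exact h1
        · exact absurd ⟨i, hi, h1⟩ hex
      refine h.no_class hm hz₀ hx hxz hny h4m (by norm_num) (fun i z hz => ?_)
      by_cases hi : 4 • i = 0
      · rw [← hFd, hno i hi, hno (i + z) (by rw [smul_add, hi, hz, add_zero])]
      · exact hF4 i z hz hi
  intro x y hx hy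
  exact h.equiv.trans (key x hx) (h.equiv.symm (key y hy))

/-- **A primitive Schur ring over a dihedral group is trivial.** -/
theorem main (h : PS rr) (hm : 2 ≤ m) : ∀ x y : DihedralGroup m, x ≠ 1 → y ≠ 1 → rr x y := by
  apply h.trivial_of_rat hm
  have h' := h.rat hm
  by_cases hodd : ∃ p, p.Prime ∧ p ≠ 2 ∧ p ∣ m
  · obtain ⟨p, hp, hp2, hpm⟩ := hodd
    exact h'.trivial_odd hm rat_RR hp hp2 hpm
  · push Not at hodd
    have hpow : m = 2 ^ m.primeFactorsList.length := by
      apply Nat.eq_prime_pow_of_unique_prime_dvd (NeZero.ne m)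
      intro d hd hdm
      by_contra hne
      exact hodd d hd hne hdm
    exact h'.trivial_two hm rat_RR hpow

end PS

end Cfsg.Agent.H93.DB
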