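import Cfsg.Agent.H93.DB.Rat

/-!
Orders of elements of `ZMod m` and the `p`-power fibres.
-/

set_option autoImplicit false
set_option linter.unusedSectionVars false
set_option linter.unusedVariables false

open Finset DihedralGroup

namespace Cfsg.Agent.H93.DB

variable {m : ℕ} [NeZero m]

/-- elements of the same order are multiples of each other by a number prime to `m` -/
theorem exists_mul_of_order {i j : ZMod m} (h : addOrderOf i = addOrderOf j) :
    ∃ k : ℕ, k.Coprime m ∧ j = k • i := by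
  have hm : 0 < m := Nat.pos_of_ne_zero (NeZero.ne m)
  obtain ⟨d, hd, u, hu, hi⟩ := ZMod.eq_unit_mul_divisor i
  obtain ⟨d', hd', u', hu', hj⟩ := ZMod.eq_unit_mul_divisor j
  obtain ⟨u, rfl⟩ := hu
  obtain ⟨u', rfl⟩ := hu'
  have hord : ∀ (v : (ZMod m)ˣ) (x : ZMod m), addOrderOf ((v : ZMod m) * x) = addOrderOf x := by
    intro v x
    have h1 : Function.Injective (AddMonoidHom.mulLeft (v : ZMod m)) := by
      intro a b hab
      exact (Units.mul_right_inj v).mp hab
    exact addOrderOf_injective _ h1 x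
  have h1 : addOrderOf i = m / d := by
    rw [hi, hord, ZMod.addOrderOf_coe d (NeZero.ne m), Nat.gcd_eq_right hd]
  have h2 : addOrderOf j = m / d' := by
    rw [hj, hord, ZMod.addOrderOf_coe d' (NeZero.ne m), Nat.gcd_eq_right hd']
  have h3 : d = d' := by
    rw [h1, h2] at h
    have hd0 : 0 < d := Nat.pos_of_dvd_of_pos hd hm
    have hd0' : 0 < d' := Nat.pos_of_dvd_of_pos hd' hm
    obtain ⟨e, he⟩ := hd
    obtain ⟨e', he'⟩ := hd'
    have h4 : m / d = e := by rw [he]; exact Nat.mul_div_cancel_left _ hd0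
    have h5 : m / d' = e' := by rw [he']; exact Nat.mul_div_cancel_left _ hd0'
    rw [h4, h5] at h
    subst h
    have he0 : 0 < e := by
      rcases Nat.eq_zero_or_pos e with rfl | h0
      · omega
      · exact h0
    have : d * e = d' * e := by rw [← he, ← he']
    exact Nat.eq_of_mul_eq_mul_right he0 this
  subst h3
  refine ⟨((u' * u⁻¹ : (ZMod m)ˣ) : ZMod m).val, ?_, ?_⟩
  · rw [← ZMod.isUnit_iff_coprime, ZMod.natCast_zmod_val]
    exact Units.isUnit _
  · rw [nsmul_eq_mul, ZMod.natCast_zmod_val, hi, hj, Units.val_mul]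
    have : (u' : ZMod m) * ((u⁻¹ : (ZMod m)ˣ) : ZMod m) * ((u : ZMod m) * d) =
      u' * (((u⁻¹ : (ZMod m)ˣ) : ZMod m) * (u : ZMod m)) * d := by ring
    rw [this]
    simp

theorem order_pos (i : ZMod m) : 0 < addOrderOf i := by
  exact addOrderOf_pos i

theorem order_nsmul_dvd (k : ℕ) (i : ZMod m) : addOrderOf (k • i) ∣ addOrderOf i := by
  apply addOrderOf_dvd_of_nsmul_eq_zero
  rw [smul_comm, addOrderOf_nsmul_eq_zero, smul_zero]

/-- the order of a `p`-th root of a `p`-singular element -/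
theorem order_root {p : ℕ} (hp : p.Prime) {i j : ZMod m} (hj : p • j = i) (hi : p ∣ addOrderOf i) :
    addOrderOf j = p * addOrderOf i := by
  have h1 : addOrderOf (p • j) = addOrderOf j / (addOrderOf j).gcd p := addOrderOf_nsmul' j hp.ne_zero
  have h2 : addOrderOf i ∣ addOrderOf j := by
    rw [← hj]
    exact order_nsmul_dvd p j
  have h3 : (addOrderOf j).gcd p = p := Nat.gcd_eq_right (hi.trans h2)
  rw [hj, h3] at h1
  rw [h1, Nat.mul_div_cancel' (hi.trans h2)]

theorem card_tor {p : ℕ} (hp : p ∣ m) : (univ.filter (fun z : ZMod m => p • z = 0)).card = p := by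
  have h1 := IsAddCyclic.card_nsmulAddMonoidHom_ker (G := ZMod m) p
  rw [Nat.card_zmod, Nat.gcd_eq_right hp] at h1
  rw [← Fintype.card_subtype, ← Nat.card_eq_fintype_card]
  exact h1

/-- fibres of multiplication by `p` -/
theorem sum_fibre {p : ℕ} {M : Type*} [AddCommMonoid M] (f : ZMod m → M) (j₀ : ZMod m) :
    ∑ j ∈ univ.filter (fun j : ZMod m => p • j = p • j₀), f j =
      ∑ z ∈ univ.filter (fun z : ZMod m => p • z = 0), f (j₀ + z) := by
  refine Finset.sum_nbij' (fun j => j - j₀) (fun z => j₀ + z) ?_ ?_ ?_ ?_ ?_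
  · intro j hj
    simp only [mem_filter, mem_univ, true_and] at hj ⊢
    rw [smul_sub, hj, sub_self]
  · intro j hj
    simp only [mem_filter, mem_univ, true_and] at hj ⊢
    rw [smul_add, hj, add_zero]
  · intro j _; simp
  · intro j _; simp
  · intro j _; simp

theorem sum_fibre_const {p : ℕ} (hpm : p ∣ m) (f : ZMod m → ℤ) (j₀ : ZMod m)
    (hf : ∀ z, p • z = 0 → f (j₀ + z) = f j₀) :
    ∑ j ∈ univ.filter (fun j : ZMod m => p • j = p • j₀), f j = p * f j₀ := by
  rw [sum_fibre, Finset.sum_congr rfl (fun z hz => hf z (by simpa using hz)), sum_const, card_tor hpm,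
    nsmul_eq_mul]

/-- a regular element has a regular `p`-th root with the same order -/
theorem exists_reg_root {p : ℕ} (hp : p.Prime) {i : ZMod m} (hi : ¬ p ∣ addOrderOf i) :
    ∃ j : ZMod m, p • j = i ∧ addOrderOf j = addOrderOf i := by
  have hc : p.Coprime (addOrderOf i) := (Nat.Prime.coprime_iff_not_dvd hp).mpr hi
  obtain ⟨k, hk⟩ := exists_nsmul_eq_self_of_coprime hc
  refine ⟨k • i, ?_, ?_⟩
  · rw [smul_comm]; exact hk
  · apply Nat.dvd_antisymm (order_nsmul_dvd k i)
    have h1 : addOrderOf i = addOrderOf (p • k • i) := by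
      rw [smul_comm, hk]
    rw [h1]
    exact order_nsmul_dvd p (k • i)

theorem reg_root_unique {p : ℕ} (hp : p.Prime) {i j : ZMod m} (hi : ¬ p ∣ addOrderOf i)
    (hj : ¬ p ∣ addOrderOf j) (hij : p • i = p • j) : i = j := by
  have h1 : p • (i - j) = 0 := by rw [smul_sub, hij, sub_self]
  have h2 : addOrderOf (i - j) ∣ p := addOrderOf_dvd_of_nsmul_eq_zero h1
  rcases (Nat.dvd_prime hp).mp h2 with h3 | h3
  · rw [AddMonoid.addOrderOf_eq_one_iff] at h3
    exact sub_eq_zero.mp h3
  · exfalso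
    have h4 : (addOrderOf i * addOrderOf j) • (i - j) = 0 := by
      rw [smul_sub, mul_comm, mul_smul, addOrderOf_nsmul_eq_zero, smul_zero, mul_comm, mul_smul,
        addOrderOf_nsmul_eq_zero, smul_zero, sub_zero]
    have h5 := addOrderOf_dvd_of_nsmul_eq_zero h4
    rw [h3] at h5
    rcases hp.dvd_mul.mp h5 with h6 | h6
    · exact hi h6
    · exact hj h6

end Cfsg.Agent.H93.DB
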