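import Cfsg.Agent.H93.DB.Dih

/-!
The rational closure of a primitive Schur ring over a dihedral group.
-/

set_option autoImplicit false
set_option linter.unusedSectionVars false
set_option linter.unusedVariables false

open Finset DihedralGroup

namespace Cfsg.Agent.H93.DB

variable {m : ℕ} [NeZero m]

theorem nsmul_inj {p : ℕ} (hp : p.Coprime m) {i j : ZMod m} (h : p • i = p • j) : i = j := by
  have hu : IsUnit (p : ZMod m) := (ZMod.isUnit_iff_coprime p m).mpr hp
  rw [nsmul_eq_mul, nsmul_eq_mul] at h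
  exact hu.mul_left_cancel h

theorem filter_nsmul {p : ℕ} (hp : p.Coprime m) (i : ZMod m) :
    univ.filter (fun j : ZMod m => p • j = p • i) = {i} := by
  ext j
  simp only [mem_filter, mem_univ, true_and, mem_singleton]
  exact ⟨fun h => nsmul_inj hp h, fun h => by rw [h]⟩

theorem exists_prime (k : ℕ) (hk : k.Coprime m) (N : ℕ) :
    ∃ p > N, p.Prime ∧ p ≠ 2 ∧ p.Coprime m ∧ ∀ i : ZMod m, p • i = k • i := by
  have hu : IsUnit (k : ZMod m) := (ZMod.isUnit_iff_coprime k m).mpr hk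
  obtain ⟨p, hpN, hp, hpk⟩ := Nat.forall_exists_prime_gt_and_eq_mod hu (max N 2)
  refine ⟨p, by omega, hp, by omega, ?_, ?_⟩
  · rw [← ZMod.isUnit_iff_coprime, hpk]; exact hu
  · intro i
    rw [nsmul_eq_mul, nsmul_eq_mul, hpk]

variable {rr : DihedralGroup m → DihedralGroup m → Prop}

theorem card_gt (hm : 2 ≤ m) : 2 < Fintype.card (DihedralGroup m) := by
  rw [DihedralGroup.card]; omega

theorem eq_of_dvd_lt {p : ℕ} {a b : ℤ} (h : (p : ℤ) ∣ a - b) (hlt : |a - b| < p) : a = b := by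
  have := Int.eq_zero_of_abs_lt_dvd h hlt
  omega

theorem conv_congr {c : ℤ} {F G F' G' : DihedralGroup m → ℤ} (hF : ∀ x, c ∣ F x - F' x)
    (hG : ∀ x, c ∣ G x - G' x) (x : DihedralGroup m) : c ∣ conv F G x - conv F' G' x := by
  unfold conv
  rw [← Finset.sum_sub_distrib]
  exact Finset.dvd_sum (fun y _ => mul_congr (hF y) (hG _))

theorem sum_conv (F G : DihedralGroup m → ℤ) : ∑ x, conv F G x = (∑ x, F x) * ∑ x, G x := by
  unfold conv
  rw [Finset.sum_comm, Finset.sum_mul]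
  refine Finset.sum_congr rfl (fun y _ => ?_)
  rw [← Finset.mul_sum]
  congr 1
  exact Equiv.sum_comp (Equiv.mulLeft y⁻¹) G

theorem sum_pw (F : DihedralGroup m → ℤ) (n : ℕ) : ∑ x, pw F n x = (∑ x, F x) ^ n := by
  induction n with
  | zero => rw [pw_zero, pow_zero]; simp [dl]
  | succ n ih => rw [pw_succ, sum_conv, ih, pow_succ]

/-- rational closure -/
def RR (rr : DihedralGroup m → DihedralGroup m → Prop) : DihedralGroup m → DihedralGroup m → Prop :=
  Relation.EqvGen (fun x y => rr x y ∨ ∃ (i : ZMod m) (k : ℕ), k.Coprime m ∧ x = r i ∧ y = r (k • i))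

theorem inv_RR_iff {F : DihedralGroup m → ℤ} : Inv (RR rr) F ↔
    Inv rr F ∧ ∀ (i : ZMod m) (k : ℕ), k.Coprime m → F (r i) = F (r (k • i)) := by
  constructor
  · intro h
    refine ⟨fun x y hxy => h x y (Relation.EqvGen.rel _ _ (Or.inl hxy)), fun i k hk => ?_⟩
    exact h _ _ (Relation.EqvGen.rel _ _ (Or.inr ⟨i, k, hk, rfl, rfl⟩))
  · rintro ⟨h1, h2⟩ x y hxy
    induction hxy with
    | rel x y h =>
      rcases h with h | ⟨i, k, hk, rfl, rfl⟩
      · exact h1 x y h
      · exact h2 i k hk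
    | refl x => rfl
    | symm x y _ ih => exact ih.symm
    | trans x y z _ _ ih1 ih2 => exact ih1.trans ih2

namespace PS

theorem meets' (h : PS rr) (hm : 2 ≤ m) (x : DihedralGroup m) : ∃ i, rr x (r i) := by
  obtain ⟨y, ⟨i, rfl⟩, hy⟩ := h.meets rot_ne_top inv_of_notMem mul_mem_rot (card_gt hm) x
  exact ⟨i, hy⟩

theorem frob_coprime (h : PS rr) {F : DihedralGroup m → ℤ} (hF : Inv rr F) {p : ℕ} (hp : p.Prime)
    (hp2 : p ≠ 2) (hpm : p.Coprime m) (i : ZMod m) : (p : ℤ) ∣ pw F p (r (p • i)) - F (r i) := by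
  have h1 := h.frob hF hp hp2 (p • i)
  rw [filter_nsmul hpm, sum_singleton] at h1
  exact h1

/-- congruence on the rotations is enough -/
theorem congr_of_rot (h : PS rr) (hm : 2 ≤ m) {F G : DihedralGroup m → ℤ} (hF : Inv rr F)
    (hG : Inv rr G) {c : ℤ} (hc : ∀ i, c ∣ F (r i) - G (r i)) (x : DihedralGroup m) : c ∣ F x - G x := by
  obtain ⟨i, hi⟩ := h.meets' hm x
  rw [hF _ _ hi, hG _ _ hi]
  exact hc i

theorem exists_nsmul {p : ℕ} (hp : p.Coprime m) (i : ZMod m) : ∃ j : ZMod m, p • j = i := by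
  have hu : IsUnit (p : ZMod m) := (ZMod.isUnit_iff_coprime p m).mpr hp
  obtain ⟨u, hu⟩ := hu
  refine ⟨((u⁻¹ : (ZMod m)ˣ) : ZMod m) * i, ?_⟩
  rw [nsmul_eq_mul, ← hu, ← mul_assoc]
  simp

theorem frob_rat (h : PS rr) (hm : 2 ≤ m) {F : DihedralGroup m → ℤ} (hF : Inv (RR rr) F) {p : ℕ} (hp : p.Prime)
    (hp2 : p ≠ 2) (hpm : p.Coprime m) (x : DihedralGroup m) : (p : ℤ) ∣ pw F p x - F x := by
  obtain ⟨hF1, hF2⟩ := inv_RR_iff.mp hF
  refine h.congr_of_rot hm (h.inv_pw hF1 p) hF1 (fun i => ?_) x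
  obtain ⟨j, rfl⟩ := exists_nsmul hpm i
  rw [← hF2 j p hpm]
  exact h.frob_coprime hF1 hp hp2 hpm j

theorem rat (h : PS rr) (hm : 2 ≤ m) : PS (RR rr) where
  equiv := Relation.EqvGen.is_equivalence _
  one := by
    intro x hx
    have h1 : Inv (RR rr) (dl : DihedralGroup m → ℤ) := by
      rw [inv_RR_iff]
      refine ⟨h.inv_dl, fun i k hk => ?_⟩
      have h2 : (r i : DihedralGroup m) = 1 ↔ r (k • i) = 1 := by
        rw [one_def, r.injEq, r.injEq]
        constructor
        · rintro rfl; rw [smul_zero]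
        · intro hi
          exact nsmul_inj hk (by rw [hi, smul_zero])
      unfold dl
      simp only [h2]
    have h2 := h1 1 x hx
    unfold dl at h2
    rw [if_pos rfl] at h2
    by_contra hne
    rw [if_neg hne] at h2
    exact one_ne_zero h2
  inv := by
    intro x y hxy
    induction hxy with
    | rel x y hxy =>
      rcases hxy with hxy | ⟨i, k, hk, rfl, rfl⟩
      · exact Relation.EqvGen.rel _ _ (Or.inl (h.inv _ _ hxy))
      · refine Relation.EqvGen.rel _ _ (Or.inr ⟨-i, k, hk, by simp, by simp⟩)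
    | refl x => exact Relation.EqvGen.refl _
    | symm x y _ ih => exact Relation.EqvGen.symm _ _ ih
    | trans x y z _ _ ih1 ih2 => exact Relation.EqvGen.trans _ _ _ ih1 ih2
  mul := by
    intro F G hF hG
    have hF1 := (inv_RR_iff.mp hF).1
    have hG1 := (inv_RR_iff.mp hG).1
    have hH := h.mul F G hF1 hG1
    rw [inv_RR_iff]
    refine ⟨hH, fun i k hk => ?_⟩
    obtain ⟨p, hpN, hp, hp2, hpm, hpk⟩ := exists_prime k hk
      (conv F G (r i) - conv F G (r (k • i))).natAbs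
    refine eq_of_dvd_lt (p := p) ?_ ?_
    · have h1 := h.frob_coprime hH hp hp2 hpm i
      have h2 : (p : ℤ) ∣ pw (conv F G) p (r (p • i)) - conv F G (r (p • i)) := by
        rw [h.pw_conv hF1 hG1]
        exact conv_congr (h.frob_rat hm hF hp hp2 hpm) (h.frob_rat hm hG hp hp2 hpm) _
      rw [← hpk i]
      have h3 := dvd_sub h2 h1
      have h4 : pw (conv F G) p (r (p • i)) - conv F G (r (p • i)) -
        (pw (conv F G) p (r (p • i)) - conv F G (r i)) = conv F G (r i) - conv F G (r (p • i)) := by ring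
      rwa [h4] at h3
    · rw [Int.abs_eq_natAbs]
      exact_mod_cast hpN
  prim := by
    intro K hK
    exact h.prim K (fun x y hxy hx => hK x y (Relation.EqvGen.rel _ _ (Or.inl hxy)) hx)

theorem ind_congr {a b c d : DihedralGroup m} (hh : rr a b ↔ rr c d) :
    ind {y | rr a y} b = ind {y | rr c y} d := by
  by_cases hij : rr a b
  · have h1 : b ∈ {y | rr a y} := hij
    have h2 : d ∈ {y | rr c y} := hh.mp hij
    rw [ind_of_mem h1, ind_of_mem h2]
  · have h1 : b ∉ {y | rr a y} := hij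
    have h2 : d ∉ {y | rr c y} := fun h' => hij (hh.mpr h')
    rw [ind_of_notMem h1, ind_of_notMem h2]

theorem ind_one {a b : DihedralGroup m} (hh : rr a b) : ind {y | rr a y} b = 1 :=
  ind_of_mem (show b ∈ {y | rr a y} from hh)

theorem ind_zero {a b : DihedralGroup m} (hh : ¬ rr a b) : ind {y | rr a y} b = 0 :=
  ind_of_notMem (show b ∉ {y | rr a y} from hh)

/-- powers reflect the classes -/
theorem rel_of_pow (h : PS rr) {p : ℕ} (hp : p.Prime) (hp2 : p ≠ 2) (hpm : p.Coprime m) {i j : ZMod m}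
    (hij : rr (r (p • i)) (r (p • j))) : rr (r i) (r j) := by
  have hF : Inv rr (ind {y | rr (r i) y}) := sat_ind h (h.sat_class _)
  have h1 := h.frob_coprime hF hp hp2 hpm i
  have h2 := h.frob_coprime hF hp hp2 hpm j
  rw [(h.inv_pw hF p) _ _ hij] at h1
  have h3 := dvd_sub h2 h1
  by_contra hcon
  rw [ind_one (h.equiv.refl (r i)), ind_zero hcon] at h3
  have h4 : (p : ℤ) ∣ 1 := by simpa using h3
  have h5 := Int.le_of_dvd (by norm_num) h4
  have := hp.two_le
  omega

theorem pow_of_rel (h : PS rr) {p : ℕ} (hpm : p.Coprime m) {i j : ZMod m} (hij : rr (r i) (r j)) :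
    rr (r (p • i)) (r (p • j)) := by
  have hu : IsUnit (p : ZMod m) := (ZMod.isUnit_iff_coprime p m).mpr hpm
  obtain ⟨u, hu⟩ := hu
  have hk : ((((u⁻¹ : (ZMod m)ˣ) : ZMod m)).val).Coprime m := by
    rw [← ZMod.isUnit_iff_coprime, ZMod.natCast_zmod_val]
    exact Units.isUnit _
  obtain ⟨q, -, hq, hq2, hqm, hqk⟩ := exists_prime _ hk 0
  apply h.rel_of_pow hq hq2 hqm
  have h1 : ∀ i : ZMod m, q • p • i = i := by
    intro i
    rw [hqk, nsmul_eq_mul, nsmul_eq_mul, ZMod.natCast_zmod_val, ← hu, ← mul_assoc]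
    simp
  rw [h1, h1]
  exact hij

theorem rel_iff (h : PS rr) {p : ℕ} (hp : p.Prime) (hp2 : p ≠ 2) (hpm : p.Coprime m) {i j : ZMod m} :
    rr (r (p • i)) (r (p • j)) ↔ rr (r i) (r j) :=
  ⟨h.rel_of_pow hp hp2 hpm, h.pow_of_rel hpm⟩

/-- class size -/
noncomputable def cs (rr : DihedralGroup m → DihedralGroup m → Prop) (x : DihedralGroup m) : ℤ :=
  ∑ y, ind {y | rr x y} y

/-- size of the rotation part -/
noncomputable def ds (rr : DihedralGroup m → DihedralGroup m → Prop) (x : DihedralGroup m) : ℤ :=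
  ∑ i : ZMod m, ind {y | rr x y} (r i)

theorem class_eq (h : PS rr) {x y : DihedralGroup m} (hxy : rr x y) : {z | rr x z} = {z | rr y z} := by
  ext z
  exact ⟨fun hz => h.equiv.trans (h.equiv.symm hxy) hz, fun hz => h.equiv.trans hxy hz⟩

theorem inv_cs (h : PS rr) (hm : 2 ≤ m) : Inv (RR rr) (cs rr) := by
  rw [inv_RR_iff]
  refine ⟨fun x y hxy => by unfold cs; rw [h.class_eq hxy], fun i k hk => ?_⟩
  obtain ⟨p, hpN, hp, hp2, hpm, hpk⟩ := exists_prime k hk (2 * m)
  rw [← hpk i]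
  have hpf := Fact.mk hp
  have hF : Inv rr (ind {y | rr (r i) y}) := sat_ind h (h.sat_class _)
  have hG : Inv rr (ind {y | rr (r (p • i)) y}) := sat_ind h (h.sat_class _)
  have h1 : ∀ x, (p : ℤ) ∣ pw (ind {y | rr (r i) y}) p x - ind {y | rr (r (p • i)) y} x := by
    refine h.congr_of_rot hm (h.inv_pw hF p) hG (fun j => ?_)
    obtain ⟨j, rfl⟩ := exists_nsmul hpm j
    have h2 := h.frob_coprime hF hp hp2 hpm j
    have h3 : ind {y | rr (r (p • i)) y} (r (p • j)) = ind {y | rr (r i) y} (r j) :=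
      ind_congr (h.rel_iff hp hp2 hpm)
    rw [h3]
    exact h2
  have h2 : (p : ℤ) ∣ (cs rr (r i)) ^ p - cs rr (r (p • i)) := by
    unfold cs
    rw [← sum_pw, ← Finset.sum_sub_distrib]
    exact Finset.dvd_sum (fun x _ => h1 x)
  have h3 : (p : ℤ) ∣ (cs rr (r i)) ^ p - cs rr (r i) := by
    rw [← ZMod.intCast_zmod_eq_zero_iff_dvd]
    push_cast
    rw [ZMod.pow_card, sub_self]
  have h4 : (p : ℤ) ∣ cs rr (r i) - cs rr (r (p • i)) := by
    have := dvd_sub h2 h3
    have h5 : cs rr (r i) ^ p - cs rr (r (p • i)) - (cs rr (r i) ^ p - cs rr (r i)) =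
      cs rr (r i) - cs rr (r (p • i)) := by ring
    rwa [h5] at this
  have hb : ∀ x, 0 ≤ cs rr x ∧ cs rr x ≤ 2 * m := by
    intro x
    refine ⟨Finset.sum_nonneg (fun y _ => ind_nonneg _ _), ?_⟩
    calc cs rr x ≤ ∑ _y : DihedralGroup m, (1 : ℤ) := Finset.sum_le_sum (fun y _ => ind_le _ _)
      _ = 2 * m := by simp [DihedralGroup.card]
  refine eq_of_dvd_lt h4 ?_
  have h5 := hb (r i)
  have h6 := hb (r (p • i))
  have h7 : (2 * m : ℤ) < p := by exact_mod_cast hpN
  rw [abs_lt]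
  constructor <;> linarith [h5.1, h5.2, h6.1, h6.2]

theorem inv_ds (h : PS rr) : Inv (RR rr) (ds rr) := by
  rw [inv_RR_iff]
  refine ⟨fun x y hxy => by unfold ds; rw [h.class_eq hxy], fun i k hk => ?_⟩
  obtain ⟨p, hpN, hp, hp2, hpm, hpk⟩ := exists_prime k hk (2 * m)
  rw [← hpk i]
  unfold ds
  have hbij : Function.Bijective (fun j : ZMod m => p • j) :=
    ⟨fun a b hab => nsmul_inj hpm hab, fun j => exists_nsmul hpm j⟩
  rw [← (Equiv.ofBijective _ hbij).sum_comp (fun j => ind {y | rr (r (p • i)) y} (r j))]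
  refine Finset.sum_congr rfl (fun j _ => ?_)
  simp only [Equiv.ofBijective_apply]
  exact ind_congr (h.rel_iff hp hp2 hpm).symm

/-- if the rational closure is trivial then so is the Schur ring. -/
theorem trivial_of_rat (h : PS rr) (hm : 2 ≤ m)
    (htriv : ∀ x y : DihedralGroup m, x ≠ 1 → y ≠ 1 → RR rr x y) :
    ∀ x y : DihedralGroup m, x ≠ 1 → y ≠ 1 → rr x y := by
  classical
  intro x₀ y₀ hx₀ hy₀
  set c : ℤ := cs rr x₀ with hc
  set d : ℤ := ds rr x₀ with hd
  have hcs : ∀ x, x ≠ 1 → cs rr x = c := fun x hx => (h.inv_cs hm) _ _ (htriv x x₀ hx hx₀)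
  have hds : ∀ x, x ≠ 1 → ds rr x = d := fun x hx => h.inv_ds _ _ (htriv x x₀ hx hx₀)
  -- double counting
  have hone : ∀ x, x ≠ 1 → ¬ rr x 1 := fun x hx h' => hx (h.one' h')
  have h1 : ∑ x ∈ univ.erase (1 : DihedralGroup m), ∑ i ∈ univ.erase (0 : ZMod m), ind {y | rr x y} (r i) =
      (2 * m - 1) * d := by
    have h2 : ∀ x ∈ univ.erase (1 : DihedralGroup m),
        ∑ i ∈ univ.erase (0 : ZMod m), ind {y | rr x y} (r i) = d := by
      intro x hx
      rw [mem_erase] at hx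
      rw [← hds x hx.1]
      unfold ds
      rw [← Finset.add_sum_erase univ _ (mem_univ (0 : ZMod m))]
      have : ind {y | rr x y} (r 0) = 0 := ind_zero (hone x hx.1)
      rw [this, zero_add]
    rw [Finset.sum_congr rfl h2, sum_const, nsmul_eq_mul, card_erase_of_mem (mem_univ _), card_univ,
      DihedralGroup.card]
    have : 1 ≤ 2 * m := by omega
    push_cast [Nat.cast_sub this]
    ring
  have h3 : ∑ x ∈ univ.erase (1 : DihedralGroup m), ∑ i ∈ univ.erase (0 : ZMod m), ind {y | rr x y} (r i) =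
      (m - 1) * c := by
    rw [Finset.sum_comm]
    have h2 : ∀ i ∈ univ.erase (0 : ZMod m),
        ∑ x ∈ univ.erase (1 : DihedralGroup m), ind {y | rr x y} (r i) = c := by
      intro i hi
      rw [mem_erase] at hi
      have hi1 : (r i : DihedralGroup m) ≠ 1 := by
        rw [one_def]
        intro h'
        exact hi.1 (by injection h')
      rw [← hcs _ hi1]
      unfold cs
      rw [← Finset.add_sum_erase univ _ (mem_univ (1 : DihedralGroup m))]
      have : ind {y | rr (r i) y} 1 = 0 := ind_zero (hone _ hi1)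
      rw [this, zero_add]
      refine Finset.sum_congr rfl (fun x _ => ?_)
      exact ind_congr ⟨fun h' => h.equiv.symm h', fun h' => h.equiv.symm h'⟩
    rw [Finset.sum_congr rfl h2, sum_const, nsmul_eq_mul, card_erase_of_mem (mem_univ _), card_univ,
      ZMod.card]
    have : 1 ≤ m := by omega
    push_cast [Nat.cast_sub this]
    ring
  have h4 : (2 * m - 1 : ℤ) * d = (m - 1) * c := by rw [← h1, h3]
  have h5 : (2 * m - 1 : ℤ) ∣ c := by
    have h6 : (2 * m - 1 : ℤ) ∣ (m - 1) * c := ⟨d, h4.symm⟩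
    have h7 : (2 * m - 1 : ℤ) ∣ 2 * ((m - 1) * c) := h6.mul_left 2
    have h8 : c = (2 * m - 1) * c - 2 * ((m - 1) * c) := by ring
    rw [h8]
    exact dvd_sub (dvd_mul_right _ _) h7
  have hcpos : 0 < c := by
    have : ind {y | rr x₀ y} x₀ ≤ cs rr x₀ :=
      Finset.single_le_sum (f := fun y => ind {y | rr x₀ y} y) (fun y _ => ind_nonneg _ _) (mem_univ x₀)
    rw [ind_one (h.equiv.refl x₀)] at this
    omega
  have h6 := Int.le_of_dvd hcpos h5
  by_contra hcon
  have h7 : c ≤ 2 * m - 2 := by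
    have h8 : c = ∑ y ∈ (univ.erase (1 : DihedralGroup m)).erase y₀, ind {y | rr x₀ y} y := by
      rw [hc]
      unfold cs
      rw [← Finset.add_sum_erase univ _ (mem_univ (1 : DihedralGroup m)),
        ← Finset.add_sum_erase (univ.erase 1) _ (mem_erase.mpr ⟨hy₀, mem_univ y₀⟩)]
      rw [ind_zero (hone x₀ hx₀), ind_zero hcon]
      ring
    rw [h8]
    calc ∑ y ∈ (univ.erase (1 : DihedralGroup m)).erase y₀, ind {y | rr x₀ y} y
        ≤ ∑ _y ∈ (univ.erase (1 : DihedralGroup m)).erase y₀, (1 : ℤ) :=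
          Finset.sum_le_sum (fun y _ => ind_le _ _)
      _ = 2 * m - 2 := by
        rw [sum_const, nsmul_eq_mul, mul_one, card_erase_of_mem (mem_erase.mpr ⟨hy₀, mem_univ y₀⟩),
          card_erase_of_mem (mem_univ _), card_univ, DihedralGroup.card]
        omega
  omega

end PS

end Cfsg.Agent.H93.DB
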